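import Cfsg.Agent.LAE62.Nine.Model

/-!
Integral vectors with the inner products of the exceptional differences.
-/

set_option autoImplicit false

namespace Cfsg.Agent.LAE62.Nine

/-- `φ` vanishes at the identity and at involutions. -/
def Supported (c : Fin 15 → ℤ) : Prop := ∀ j : Fin 4, ∑ t, c t * regTab t j = 0

/-- Unit vector. -/
def e (i : Fin 15) : Fin 15 → ℤ := fun t => if t = i then 1 else 0

/-- Differences of exceptional characters. -/
def vecD (j : Fin 4) : Fin 15 → ℤ := e 10 - e (![11, 12, 13, 14] j)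

/-- Combinations with one pair. -/
def vecG (k : Fin 3) : Fin 15 → ℤ := e (![4, 6, 8] k) + e (![5, 7, 9] k) - e 10

/-- The combination with the linear characters. -/
def vecG0 : Fin 15 → ℤ := e 0 + e 1 + e 2 + e 3 - e 10

/-- Combinations separating the members of a pair. -/
def vecF (k : Fin 3) : Fin 15 → ℤ :=
  e (![4, 6, 8] k) - e (![5, 7, 9] k) -
    (e 0 + e (![1, 2, 3] k) - e (![2, 3, 1] k) - e (![3, 1, 2] k))

/-- The even part of `vecF - vecG - vecG0`. -/
def vecE (k : Fin 3) : Fin 15 → ℤ := e 10 - e 0 - e (![1, 2, 3] k) - e (![5, 7, 9] k)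

/-- Combination vanishing on products of two involutions. -/
def vecPhi : Fin 15 → ℤ :=
  (2 : ℤ) • vecG0 - (2 : ℤ) • vecG 0 - (2 : ℤ) • vecG 1 - (2 : ℤ) • vecG 2
    - (2 : ℤ) • vecD 0 - (2 : ℤ) • vecD 1 + vecD 2 + vecD 3

theorem vecF_eq : ∀ k t, vecF k t = vecG k t + vecG0 t + 2 * vecE k t := by decide +kernel

variable {X : Type*} [Fintype X] [DecidableEq X]

/-- The pairing of a vector with the multiplicities at `x`. -/
def pair (r : X → Fin 15 → ℤ) (c : Fin 15 → ℤ) (x : X) : ℤ := ∑ t, c t * r x t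

/-- The hypotheses. -/
structure Input (r : X → Fin 15 → ℤ) (deg : X → ℤ) (t0 : X) : Prop where
  iso : ∀ c c', Supported c → Supported c' → ∑ x, pair r c x * pair r c' x = ∑ t, c t * c' t
  deg_orth : ∀ c, Supported c → ∑ x, pair r c x * deg x = 0
  deg_pos : ∀ x, 0 < deg x
  trivial : r t0 = e 0

/-- Indicator. -/
def ind (a x : X) : ℤ := if x = a then 1 else 0

/-- The conclusion. -/
def Output (r : X → Fin 15 → ℤ) (t0 : X) : Prop :=
  ∃ (a : X) (b : Fin 4 → X) (s : ℤ) (P Q C : Fin 3 → X) (p q η : Fin 3 → ℤ),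
    s * s = 1 ∧ (∀ k, p k * p k = 1 ∧ q k * q k = 1 ∧ η k * η k = 1) ∧
    (∀ j x, pair r (vecD j) x = s * ind a x - s * ind (b j) x) ∧
    (∀ k x, pair r (vecG k) x = -s * ind a x + p k * ind (P k) x + q k * ind (Q k) x) ∧
    (∀ x, pair r vecG0 x = ind t0 x - s * ind a x + ∑ k, η k * ind (C k) x) ∧
    (∀ k x, pair r (vecF k) x = -ind t0 x + p k * ind (P k) x - q k * ind (Q k) x +
      ∑ l, (if l = k then -1 else 1) * η l * ind (C l) x) ∧
    ∀ k, (∀ j, pair r (vecD j) (C k) = 0) ∧ (∀ l, pair r (vecG l) (C k) = 0) ∧ pair r vecG0 (C k) = η k ∧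
      ∀ l, pair r (vecF l) (C k) = (if k = l then -1 else 1) * η k

omit [Fintype X] [DecidableEq X] in
theorem sq_le_one {v : ℤ} (h : v * v ≤ 3) : v * v = v * v * (v * v) := by
  have h1 : -1 ≤ v := by nlinarith
  have h2 : v ≤ 1 := by nlinarith
  interval_cases v <;> norm_num

omit [DecidableEq X] in
theorem support_spec {v : X → ℤ} (h : ∑ x, v x * v x ≤ 3) :
    ((Finset.univ.filter fun x => v x ≠ 0).card : ℤ) = ∑ x, v x * v x ∧ ∀ x, v x ≠ 0 → v x * v x = 1 := by
  classical
  have hle : ∀ x, v x * v x ≤ 3 := fun x =>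
    (Finset.single_le_sum (fun y _ => mul_self_nonneg (v y)) (Finset.mem_univ x)).trans h
  have hone : ∀ x, v x ≠ 0 → v x * v x = 1 := fun x hx => by
    have h1 : -1 ≤ v x := by nlinarith [hle x]
    have h2 : v x ≤ 1 := by nlinarith [hle x]
    interval_cases h : v x <;> simp_all
  refine ⟨?_, hone⟩
  rw [Finset.card_filter]
  push_cast
  refine Finset.sum_congr rfl fun x _ => ?_
  by_cases hx : v x = 0
  · simp [hx]
  · simp [hx, hone x hx]

theorem exists_two {v : X → ℤ} (h : ∑ x, v x * v x = 2) :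
    ∃ P Q : X, P ≠ Q ∧ v P * v P = 1 ∧ v Q * v Q = 1 ∧ ∀ x, v x = v P * ind P x + v Q * ind Q x := by
  obtain ⟨hc, hone⟩ := support_spec (v := v) (by omega)
  obtain ⟨P, Q, hne, hS⟩ := Finset.card_eq_two.1 (show (Finset.univ.filter fun x => v x ≠ 0).card = 2 by omega)
  have hm : ∀ x, v x ≠ 0 ↔ x = P ∨ x = Q := fun x => by
    have : x ∈ Finset.univ.filter (fun y => v y ≠ 0) ↔ x ∈ ({P, Q} : Finset X) := by rw [hS]
    simpa using this
  refine ⟨P, Q, hne, hone P ((hm P).2 (Or.inl rfl)), hone Q ((hm Q).2 (Or.inr rfl)), fun x => ?_⟩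
  by_cases h1 : x = P
  · subst h1; simp [ind, hne]
  by_cases h2 : x = Q
  · subst h2; simp [ind, hne.symm]
  have : v x = 0 := by_contra fun h0 => by rcases (hm x).1 h0 with e | e <;> contradiction
  simp [ind, h1, h2, this]

theorem sum_ind (a : X) (f : X → ℤ) : ∑ x, ind a x * f x = f a := by simp [ind]

theorem sum_two (P Q : X) (u w : ℤ) (f : X → ℤ) :
    ∑ x, (u * ind P x + w * ind Q x) * f x = u * f P + w * f Q := by
  simp only [add_mul, Finset.sum_add_distrib, mul_assoc, ← Finset.mul_sum, sum_ind]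

theorem ind_self (a : X) : ind a a = 1 := if_pos rfl

theorem ind_ne {a x : X} (h : x ≠ a) : ind a x = 0 := if_neg h

set_option maxHeartbeats 1600000 in
/-- The vectors are those of the characters of `M` up to labelling and signs. -/
theorem coherent {r : X → Fin 15 → ℤ} {deg : X → ℤ} {t0 : X} (hin : Input r deg t0) : Output r t0 := by
  set D := fun j => pair r (vecD j) with hD
  set G := fun k => pair r (vecG k) with hG
  set G0 := pair r vecG0 with hG0
  set F := fun k => pair r (vecF k) with hF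
  have sD : ∀ j, Supported (vecD j) := by unfold Supported; decide +kernel
  have sG : ∀ k, Supported (vecG k) := by unfold Supported; decide +kernel
  have sG0 : Supported vecG0 := by unfold Supported; decide +kernel
  have sF : ∀ k, Supported (vecF k) := by unfold Supported; decide +kernel
  have ht : ∀ c : Fin 15 → ℤ, pair r c t0 = c 0 := fun c => by simp [pair, hin.trivial, e]
  have iDD : ∀ i j, ∑ x, D i x * D j x = if i = j then 2 else 1 := fun i j => by
    rw [hin.iso _ _ (sD i) (sD j)]; revert i j; decide +kernel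
  have iGD : ∀ k j, ∑ x, G k x * D j x = -1 := fun k j => by
    rw [hin.iso _ _ (sG k) (sD j)]; revert k j; decide +kernel
  have iG0D : ∀ j, ∑ x, G0 x * D j x = -1 := fun j => by
    rw [hin.iso _ _ sG0 (sD j)]; revert j; decide +kernel
  have iFD : ∀ k j, ∑ x, F k x * D j x = 0 := fun k j => by
    rw [hin.iso _ _ (sF k) (sD j)]; revert k j; decide +kernel
  have iGG : ∀ k l, ∑ x, G k x * G l x = if k = l then 3 else 1 := fun k l => by
    rw [hin.iso _ _ (sG k) (sG l)]; revert k l; decide +kernel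
  have iG0G0 : ∑ x, G0 x * G0 x = 5 := by rw [hin.iso _ _ sG0 sG0]; decide +kernel
  have iG0G : ∀ k, ∑ x, G0 x * G k x = 1 := fun k => by
    rw [hin.iso _ _ sG0 (sG k)]; revert k; decide +kernel
  have iFF : ∀ k l, ∑ x, F k x * F l x = if k = l then 6 else 0 := fun k l => by
    rw [hin.iso _ _ (sF k) (sF l)]; revert k l; decide +kernel
  have iFG : ∀ k l, ∑ x, F k x * G l x = 0 := fun k l => by
    rw [hin.iso _ _ (sF k) (sG l)]; revert k l; decide +kernel
  have iFG0 : ∀ k, ∑ x, F k x * G0 x = 0 := fun k => by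
    rw [hin.iso _ _ (sF k) sG0]; revert k; decide +kernel
  have hpar : ∀ k x, ∃ z, F k x = G k x + G0 x + 2 * z := fun k x =>
    ⟨pair r (vecE k) x, by
      simp only [hF, hG, hG0, pair, Finset.mul_sum, ← Finset.sum_add_distrib]
      exact Finset.sum_congr rfl fun t _ => by rw [vecF_eq]; ring⟩
  have hdeg : ∀ c, Supported c → ∑ x, pair r c x * deg x = 0 := hin.deg_orth
  -- the differences
  have hDtwo : ∀ j, ∃ P Q : X, P ≠ Q ∧ D j P * D j P = 1 ∧ D j Q * D j Q = 1 ∧
      (∀ x, D j x = D j P * ind P x + D j Q * ind Q x) ∧ D j P * D j Q = -1 := by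
    intro j
    obtain ⟨P, Q, hne, hP, hQ, hx⟩ := exists_two (v := D j) (by rw [iDD, if_pos rfl])
    refine ⟨P, Q, hne, hP, hQ, hx, ?_⟩
    have h : ∑ x, (D j P * ind P x + D j Q * ind Q x) * deg x = 0 := by
      rw [← hdeg _ (sD j)]
      exact Finset.sum_congr rfl fun x _ => by rw [← hx x]
    rw [sum_two] at h
    rcases mul_self_eq_one_iff.1 hP with e1 | e1 <;> rcases mul_self_eq_one_iff.1 hQ with e2 | e2 <;>
      rw [e1, e2] at h ⊢ <;> nlinarith [hin.deg_pos P, hin.deg_pos Q]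
  obtain ⟨A, A', hAA, hA, hA', hD0, hDs⟩ := hDtwo 0
  -- a common point
  have hcommon : ∀ j, j ≠ 0 → D j A * D 0 A + D j A' * D 0 A' = 1 := by
    intro j hj
    have h : ∑ x, (D 0 A * ind A x + D 0 A' * ind A' x) * D j x = 1 := by
      rw [Finset.sum_congr rfl fun x _ => by rw [← hD0 x], iDD, if_neg (Ne.symm hj)]
    rw [sum_two] at h
    linarith
  have honly : ∀ j, j ≠ 0 → (D j A = D 0 A ∧ D j A' = 0) ∨ (D j A' = D 0 A' ∧ D j A = 0) := by
    intro j hj
    obtain ⟨P, Q, hne, hP, hQ, hx, hPQ⟩ := hDtwo j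
    have h := hcommon j hj
    have b1 : -1 ≤ D j A ∧ D j A ≤ 1 := by
      have := Finset.single_le_sum (fun y _ => mul_self_nonneg (D j y)) (Finset.mem_univ A)
      rw [iDD, if_pos rfl] at this
      constructor <;> nlinarith
    have b2 : -1 ≤ D j A' ∧ D j A' ≤ 1 := by
      have := Finset.single_le_sum (fun y _ => mul_self_nonneg (D j y)) (Finset.mem_univ A')
      rw [iDD, if_pos rfl] at this
      constructor <;> nlinarith
    rcases mul_self_eq_one_iff.1 hA with e1 | e1 <;> rcases mul_self_eq_one_iff.1 hA' with e2 | e2 <;>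
      rw [e1, e2] at h hDs ⊢ <;> omega
  have hbase : ∃ a : X, D 0 a * D 0 a = 1 ∧ ∀ j, D j a = D 0 a := by
    by_cases h1 : ∀ j, j ≠ 0 → D j A = D 0 A
    · exact ⟨A, hA, fun j => if hj : j = 0 then hj ▸ rfl else h1 j hj⟩
    by_cases h2 : ∀ j, j ≠ 0 → D j A' = D 0 A'
    · exact ⟨A', hA', fun j => if hj : j = 0 then hj ▸ rfl else h2 j hj⟩
    exfalso
    push Not at h1 h2
    obtain ⟨i, hi, hiA⟩ := h1
    obtain ⟨l, hl, hlA⟩ := h2
    have hi' := (honly i hi).resolve_left fun h => hiA h.1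
    have hl' := (honly l hl).resolve_right fun h => hlA h.1
    have hil : i ≠ l := fun e => hlA (e ▸ hi'.1)
    obtain ⟨m, hm, hmi, hml⟩ : ∃ m : Fin 4, m ≠ 0 ∧ m ≠ i ∧ m ≠ l := (show ∀ i l : Fin 4, ∃ m, m ≠ 0 ∧ m ≠ i ∧ m ≠ l by decide) i l
    -- the third points
    have third : ∀ j, ∀ R R' : X, R ≠ R' → D j R * D j R = 1 → D 0 R * D 0 R = 1 → D j R = D 0 R → D j R' = 0 →
        ∃ E, E ≠ R ∧ E ≠ R' ∧ D j E = -D j R ∧ ∀ x, D j x = D j R * ind R x + D j E * ind E x := by
      intro j R R' hRR hj1 _ _ hj2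
      obtain ⟨P, Q, hne, hP, hQ, hx, hPQ⟩ := hDtwo j
      have hR : R = P ∨ R = Q := by
        by_contra hc
        push Not at hc
        rw [hx, ind_ne hc.1, ind_ne hc.2] at hj1
        simp at hj1
      rcases hR with rfl | rfl
      · refine ⟨Q, hne.symm, fun e => ?_, ?_, hx⟩
        · subst e; rw [hj2] at hQ; simp at hQ
        · rcases mul_self_eq_one_iff.1 hP with e1 | e1 <;> rw [e1] at hPQ ⊢ <;> linarith
      · refine ⟨P, hne, fun e => ?_, ?_, fun x => by rw [hx x]; ring⟩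
        · subst e; rw [hj2] at hP; simp at hP
        · rcases mul_self_eq_one_iff.1 hQ with e1 | e1 <;> rw [e1] at hPQ ⊢ <;> linarith
    obtain ⟨E, hEA', hEA, hE, hxi⟩ := third i A' A hAA.symm (by rw [hi'.1]; exact hA') hA' hi'.1 hi'.2
    obtain ⟨K, hKA, hKA', hK, hxl⟩ := third l A A' hAA (by rw [hl'.1]; exact hA) hA hl'.1 hl'.2
    have hilsum : ∑ x, (D i A' * ind A' x + D i E * ind E x) * D l x = 1 := by
      rw [Finset.sum_congr rfl fun x _ => by rw [← hxi x], iDD, if_neg hil]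
    rw [sum_two, hl'.2, mul_zero, zero_add] at hilsum
    have hEK : E = K := by
      by_contra hne
      rw [hxl, ind_ne hEA, ind_ne hne] at hilsum
      simp at hilsum
    subst hEK
    rcases honly m hm with ⟨hmA, hmA'⟩ | ⟨hmA', hmA⟩
    · obtain ⟨K', hK'A, hK'A', hK', hxm⟩ := third m A A' hAA (by rw [hmA]; exact hA) hA hmA hmA'
      have h : ∑ x, (D m A * ind A x + D m K' * ind K' x) * D l x = 1 := by
        rw [Finset.sum_congr rfl fun x _ => by rw [← hxm x], iDD, if_neg hml]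
      rw [sum_two, hl'.1, hmA, hA, hK', hmA] at h
      have h' : D l K' = 0 := by
        rcases mul_self_eq_one_iff.1 hA with e1 | e1 <;> rw [e1] at h <;> linarith
      have hKE : K' ≠ E := fun e => by
        rw [e, hK, hl'.1] at h'
        rcases mul_self_eq_one_iff.1 hA with e1 | e1 <;> omega
      have h2 : ∑ x, (D m A * ind A x + D m K' * ind K' x) * D i x = 1 := by
        rw [Finset.sum_congr rfl fun x _ => by rw [← hxm x], iDD, if_neg hmi]
      rw [sum_two, hi'.2, hxi K', ind_ne hKE, ind_ne hK'A'] at h2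
      simp at h2
    · obtain ⟨K', hK'A, hK'A', hK', hxm⟩ := third m A' A hAA.symm (by rw [hmA']; exact hA') hA' hmA' hmA
      have h : ∑ x, (D m A' * ind A' x + D m K' * ind K' x) * D i x = 1 := by
        rw [Finset.sum_congr rfl fun x _ => by rw [← hxm x], iDD, if_neg hmi]
      rw [sum_two, hi'.1, hmA', hA', hK', hmA'] at h
      have h' : D i K' = 0 := by
        rcases mul_self_eq_one_iff.1 hA' with e1 | e1 <;> rw [e1] at h <;> linarith
      have hKE : K' ≠ E := fun e => by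
        rw [e, hE, hi'.1] at h'
        rcases mul_self_eq_one_iff.1 hA' with e1 | e1 <;> omega
      have h2 : ∑ x, (D m A' * ind A' x + D m K' * ind K' x) * D l x = 1 := by
        rw [Finset.sum_congr rfl fun x _ => by rw [← hxm x], iDD, if_neg hml]
      rw [sum_two, hl'.2, hxl K', ind_ne hKE, ind_ne hK'A'] at h2
      simp at h2
  obtain ⟨a, ha, hDa⟩ := hbase
  set s := D 0 a with hsdef
  have hDb : ∀ j, ∃ b : X, b ≠ a ∧ ∀ x, D j x = s * ind a x - s * ind b x := by
    intro j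
    obtain ⟨P, Q, hne, hP, hQ, hx, hPQ⟩ := hDtwo j
    have hR : a = P ∨ a = Q := by
      by_contra hc
      push Not at hc
      have := hDa j
      rw [hx, ind_ne hc.1, ind_ne hc.2] at this
      rw [← this] at ha
      simp at ha
    rcases hR with rfl | rfl
    · refine ⟨Q, hne.symm, fun x => ?_⟩
      rw [hx x, hDa j]
      rw [hDa j] at hPQ
      have : D j Q = -s := by
        rcases mul_self_eq_one_iff.1 ha with e1 | e1 <;> rw [e1] at hPQ ⊢ <;> linarith
      rw [this]; ring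
    · refine ⟨P, hne, fun x => ?_⟩
      rw [hx x, hDa j]
      rw [hDa j] at hPQ
      have : D j P = -s := by
        rcases mul_self_eq_one_iff.1 ha with e1 | e1 <;> rw [e1] at hPQ ⊢ <;> linarith
      rw [this]; ring
  choose b hba hDx using hDb
  have hbinj : ∀ i j, i ≠ j → b i ≠ b j := by
    intro i j hij e
    have h := iDD i j
    rw [if_neg hij] at h
    have h2 := iDD i i
    rw [if_pos rfl] at h2
    have : ∀ x, D j x = D i x := fun x => by rw [hDx, hDx, e]
    rw [Finset.sum_congr rfl fun x _ => by rw [this]] at h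
    omega
  have hat : a ≠ t0 := fun e => by
    have h : s = 0 := by rw [hsdef, e, show D 0 t0 = vecD 0 0 from ht _]; decide
    rw [h] at ha; simp at ha
  have hbt : ∀ j, b j ≠ t0 := fun j e => by
    have h := hDx j t0
    rw [show D j t0 = 0 by rw [show D j t0 = vecD j 0 from ht _]; exact (show ∀ j, vecD j 0 = 0 by decide) j, ← e, ind_ne (hba j),
      ind_self] at h
    rw [show s = 0 by linarith] at ha; simp at ha
  have honD : ∀ (v : X → ℤ) (m : ℤ), (∀ j, ∑ x, v x * D j x = m) → ∀ j, v (b j) = v a - s * m := by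
    intro v m hv j
    have h : ∑ x, (s * ind a x + (-s) * ind (b j) x) * v x = m := by
      rw [← hv j]; exact Finset.sum_congr rfl fun x _ => by rw [hDx]; ring
    rw [sum_two] at h
    rcases mul_self_eq_one_iff.1 ha with e1 | e1 <;> rw [e1] at h ⊢ <;> linarith
  -- five squares
  have hfive : ∀ (v : X → ℤ) (t : Finset X), (∀ x ∈ t, x ≠ a ∧ ∀ j, x ≠ b j) →
      v a * v a + ∑ j, v (b j) * v (b j) + ∑ x ∈ t, v x * v x ≤ ∑ x, v x * v x := by
    intro v t ht'
    have hS : Disjoint (insert a (Finset.univ.image b)) t := Finset.disjoint_left.2 fun x hx hxt => by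
      rcases Finset.mem_insert.1 hx with e | e
      · exact (ht' x hxt).1 e
      · obtain ⟨j, -, e'⟩ := Finset.mem_image.1 e
        exact (ht' x hxt).2 j e'.symm
    have h := Finset.sum_le_sum_of_subset_of_nonneg
      (Finset.subset_univ (insert a (Finset.univ.image b) ∪ t)) (fun x _ _ => mul_self_nonneg (v x))
    rwa [Finset.sum_union hS, Finset.sum_insert (fun hm => by obtain ⟨j, -, e⟩ := Finset.mem_image.1 hm; exact hba j e),
      Finset.sum_image fun i _ j _ hij => by_contra fun hne => hbinj i j hne hij] at h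
  -- the pairs
  have hGa : ∀ k, G k a = -s ∧ ∀ j, G k (b j) = 0 := by
    intro k
    have hb := honD (G k) (-1) (iGD k)
    have h := hfive (G k) ∅ (by simp)
    rw [iGG, if_pos rfl, Finset.sum_empty, add_zero] at h
    simp only [hb, Finset.sum_const, Finset.card_univ, Fintype.card_fin, nsmul_eq_mul] at h
    have b1 : -1 ≤ G k a := by nlinarith
    have b2 : G k a ≤ 1 := by nlinarith
    have key : G k a = -s := by
      rcases mul_self_eq_one_iff.1 ha with e1 | e1 <;> rw [e1] at h ⊢ <;> interval_cases hh : G k a <;>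
        first | omega | norm_num at h ⊢
    exact ⟨key, fun j => by rw [hb, key]; ring⟩
  have hGt : ∀ k, G k t0 = 0 := fun k => by rw [show G k t0 = vecG k 0 from ht _]; revert k; decide
  have hRest : ∀ (v : X → ℤ), v a = -s → ∀ f : X → ℤ,
      ∑ x, (v x + s * ind a x) * f x = ∑ x, v x * f x + s * f a := fun v _ f => by
    rw [Finset.sum_congr rfl (g := fun x => v x * f x + s * (ind a x * f x)) fun x _ => by ring,
      Finset.sum_add_distrib, ← Finset.mul_sum, sum_ind]
  have hR : ∀ k, ∑ x, (G k x + s * ind a x) * (G k x + s * ind a x) = 2 := fun k => by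
    rw [hRest _ (hGa k).1 (fun x => G k x + s * ind a x)]
    simp only [mul_add, Finset.sum_add_distrib, iGG, if_true]
    rw [Finset.sum_congr rfl (g := fun x => s * (ind a x * G k x)) fun x _ => by ring, ← Finset.mul_sum, sum_ind,
      (hGa k).1, ind_self]
    linarith
  have hpairs : ∀ k, ∃ P Q : X, P ≠ Q ∧ P ≠ a ∧ Q ≠ a ∧ P ≠ t0 ∧ Q ≠ t0 ∧ G k P * G k P = 1 ∧ G k Q * G k Q = 1 ∧
      ∀ x, G k x = -s * ind a x + G k P * ind P x + G k Q * ind Q x := by
    intro k
    obtain ⟨P, Q, hne, hP, hQ, hx⟩ := exists_two (hR k)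
    have hPa : P ≠ a := fun e => by subst e; rw [(hGa k).1, ind_self] at hP; simp at hP
    have hQa : Q ≠ a := fun e => by subst e; rw [(hGa k).1, ind_self] at hQ; simp at hQ
    rw [ind_ne hPa, mul_zero, add_zero] at hP hx
    rw [ind_ne hQa, mul_zero, add_zero] at hQ hx
    refine ⟨P, Q, hne, hPa, hQa, fun e => ?_, fun e => ?_, hP, hQ, fun x => by linarith [hx x]⟩
    · rw [e, hGt] at hP; simp at hP
    · rw [e, hGt] at hQ; simp at hQ
  choose P₀ Q₀ hPQ₀ hP₀a hQ₀a hP₀t hQ₀t hp₀ hq₀ hGx using hpairs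
  have hG0t : G0 t0 = 1 := by rw [hG0, ht]; decide
  have hG0a : G0 a = -s ∧ ∀ j, G0 (b j) = 0 := by
    have hb := honD G0 (-1) iG0D
    have h := hfive G0 {t0} (by
      intro x hx; rw [Finset.mem_singleton.1 hx]; exact ⟨hat.symm, fun j => (hbt j).symm⟩)
    rw [iG0G0, Finset.sum_singleton, hG0t] at h
    simp only [hb, Finset.sum_const, Finset.card_univ, Fintype.card_fin, nsmul_eq_mul] at h
    have b1 : -2 ≤ G0 a := by nlinarith
    have b2 : G0 a ≤ 2 := by nlinarith
    have key : G0 a = -s ∨ G0 a = 0 := by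
      rcases mul_self_eq_one_iff.1 ha with e1 | e1 <;> rw [e1] at h ⊢ <;> interval_cases hh : G0 a <;>
        first | omega | norm_num at h ⊢
    rcases key with key | key
    · exact ⟨key, fun j => by rw [hb, key]; ring⟩
    exfalso
    -- the four points exhaust the norm
    have hz : ∀ x, x ≠ t0 → (∀ j, x ≠ b j) → G0 x = 0 := by
      intro x hx hxb
      by_cases hxa : x = a
      · rw [hxa, key]
      have h' := hfive G0 {t0, x} (by
        intro y hy
        rcases Finset.mem_insert.1 hy with e | e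
        · rw [e]; exact ⟨hat.symm, fun j => (hbt j).symm⟩
        · rw [Finset.mem_singleton.1 e]; exact ⟨hxa, hxb⟩)
      rw [iG0G0, Finset.sum_pair (Ne.symm hx), hG0t, key] at h'
      simp only [hb, key, Finset.sum_const, Finset.card_univ, Fintype.card_fin, nsmul_eq_mul] at h'
      have h4 : G0 x * G0 x ≤ 0 := by
        rcases mul_self_eq_one_iff.1 ha with e1 | e1 <;> rw [e1] at h' <;> norm_num at h' <;> linarith
      exact mul_self_eq_zero.1 (le_antisymm h4 (mul_self_nonneg _))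
    have h := iG0G 0
    rw [Finset.sum_eq_zero fun x _ => ?_] at h
    · omega
    · by_cases hx : x = t0
      · rw [hx, hGt, mul_zero]
      by_cases hxb : ∃ j, x = b j
      · obtain ⟨j, rfl⟩ := hxb; rw [(hGa 0).2 j, mul_zero]
      · push Not at hxb
        rw [hz x hx hxb, zero_mul]
  set R0 := fun x => G0 x - ind t0 x + s * ind a x with hR0
  have hR0n : ∑ x, R0 x * R0 x = 3 := by
    have e1 : ∀ x, R0 x * R0 x = G0 x * G0 x - 2 * (ind t0 x * G0 x) + ind t0 x + 2 * s * (ind a x * G0 x) + ind a x := by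
      intro x
      simp only [hR0, ind]
      split_ifs with h1 h2 <;> try (exact absurd (h2.symm.trans h1) hat)
      all_goals linear_combination (norm := ring_nf) (0 : ℤ) * ha
      all_goals linarith
    simp only [e1, Finset.sum_add_distrib, Finset.sum_sub_distrib, ← Finset.mul_sum, sum_ind, iG0G0, hG0t, hG0a.1]
    simp [ind]
    linarith
  obtain ⟨hScard, hSone⟩ := support_spec (v := R0) (by omega)
  set S0 := Finset.univ.filter fun x => R0 x ≠ 0 with hS0
  have hS3 : S0.card = 3 := by omega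
  have hR0t : R0 t0 = 0 := by simp [hR0, hG0t, ind, hat.symm]
  have hR0a : R0 a = 0 := by simp [hR0, hG0a.1, ind, hat]
  have hS0ne : ∀ x ∈ S0, x ≠ t0 ∧ x ≠ a ∧ (∀ j, x ≠ b j) ∧ G0 x = R0 x ∧ R0 x * R0 x = 1 := by
    intro x hx
    have hx' := (Finset.mem_filter.1 hx).2
    have h1 : x ≠ t0 := fun e => hx' (e ▸ hR0t)
    have h2 : x ≠ a := fun e => hx' (e ▸ hR0a)
    have h3 : G0 x = R0 x := by simp [hR0, ind_ne h1, ind_ne h2]
    exact ⟨h1, h2, fun j e => hx' (by rw [← h3, e, hG0a.2]), h3, hSone x hx'⟩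
  have hG0x : ∀ x, G0 x = ind t0 x - s * ind a x + R0 x := fun x => by simp only [hR0]; ring
  have hsumS : ∀ f : X → ℤ, ∑ x, R0 x * f x = ∑ x ∈ S0, R0 x * f x := fun f =>
    (Finset.sum_subset (Finset.subset_univ _) fun x _ hx => by
      rw [show R0 x = 0 by simpa [hS0] using hx, zero_mul]).symm
  have hwith0 : ∀ f : X → ℤ, ∑ x, G0 x * f x = f t0 - s * f a + ∑ x ∈ S0, R0 x * f x := fun f => by
    rw [← hsumS, Finset.sum_congr rfl (g := fun x => ind t0 x * f x - s * (ind a x * f x) + R0 x * f x)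
      fun x _ => by rw [hG0x]; ring, Finset.sum_add_distrib, Finset.sum_sub_distrib, ← Finset.mul_sum, sum_ind,
      sum_ind]
  have hwith : ∀ k (f : X → ℤ), ∑ x, G k x * f x = -s * f a + G k (P₀ k) * f (P₀ k) + G k (Q₀ k) * f (Q₀ k) := by
    intro k f
    rw [Finset.sum_congr rfl (g := fun x => (-s) * (ind a x * f x) + G k (P₀ k) * (ind (P₀ k) x * f x) +
      G k (Q₀ k) * (ind (Q₀ k) x * f x)) fun x _ => by rw [hGx k x]; ring,
      Finset.sum_add_distrib, Finset.sum_add_distrib, ← Finset.mul_sum, ← Finset.mul_sum, ← Finset.mul_sum,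
      sum_ind, sum_ind, sum_ind]
  -- different pairs are disjoint
  have hdisj : ∀ k l, k ≠ l → ∀ x, (x = P₀ k ∨ x = Q₀ k) → G l x = 0 := by
    intro k l hkl x hx
    have hxa : x ≠ a := by rcases hx with rfl | rfl <;> [exact hP₀a k; exact hQ₀a k]
    have h := iGG k l
    rw [if_neg hkl, hwith, (hGa l).1] at h
    have h0 : G k (P₀ k) * G l (P₀ k) + G k (Q₀ k) * G l (Q₀ k) = 0 := by linarith
    by_contra hne
    have hPn : G l (P₀ k) ≠ 0 ∧ G l (Q₀ k) ≠ 0 := by
      rcases hx with rfl | rfl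
      · refine ⟨hne, fun e => ?_⟩
        rw [e, mul_zero, add_zero] at h0
        rcases mul_eq_zero.1 h0 with e' | e'
        · exact absurd (hp₀ k) (by rw [e']; norm_num)
        · exact hne e'
      · refine ⟨fun e => ?_, hne⟩
        rw [e, mul_zero, zero_add] at h0
        rcases mul_eq_zero.1 h0 with e' | e'
        · exact absurd (hq₀ k) (by rw [e']; norm_num)
        · exact hne e'
    have hsupp : ∀ y, y ≠ a → G l y ≠ 0 → y = P₀ l ∨ y = Q₀ l := fun y hya hy => by
      by_contra hc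
      push Not at hc
      exact hy (by rw [hGx l y, ind_ne hya, ind_ne hc.1, ind_ne hc.2]; ring)
    have hdk := hdeg _ (sG k)
    have hdl := hdeg _ (sG l)
    rw [show (∑ x, pair r (vecG k) x * deg x) = ∑ x, G k x * deg x from rfl, hwith] at hdk
    rw [show (∑ x, pair r (vecG l) x * deg x) = ∑ x, G l x * deg x from rfl, hwith] at hdl
    have hPl := hsupp _ (hP₀a k) hPn.1
    have hQl := hsupp _ (hQ₀a k) hPn.2
    have hdl' : -s * deg a + G l (P₀ k) * deg (P₀ k) + G l (Q₀ k) * deg (Q₀ k) = 0 := by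
      rcases hPl with e1 | e1 <;> rcases hQl with e2 | e2
      · exact absurd (e1.trans e2.symm) (hPQ₀ k)
      · rw [e1, e2]; exact hdl
      · rw [e1, e2]; linarith
      · exact absurd (e1.trans e2.symm) (hPQ₀ k)
    have hu : G l (P₀ k) * G l (P₀ k) = 1 := by rcases hPl with e1 | e1 <;> rw [e1] <;> [exact hp₀ l; exact hq₀ l]
    have hv : G l (Q₀ k) * G l (Q₀ k) = 1 := by rcases hQl with e1 | e1 <;> rw [e1] <;> [exact hp₀ l; exact hq₀ l]
    have := hin.deg_pos (P₀ k)
    have := hin.deg_pos (Q₀ k)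
    rcases mul_self_eq_one_iff.1 (hp₀ k) with a1 | a1 <;> rcases mul_self_eq_one_iff.1 (hq₀ k) with a2 | a2 <;>
      rcases mul_self_eq_one_iff.1 hu with a3 | a3 <;> rcases mul_self_eq_one_iff.1 hv with a4 | a4 <;>
      rw [a1, a2, a3, a4] at h0 <;> rw [a1, a2] at hdk <;> rw [a3, a4] at hdl' <;> omega
  -- the vectors `F`
  have hFt : ∀ k, F k t0 = -1 := fun k => by rw [show F k t0 = vecF k 0 from ht _]; revert k; decide
  have hFa : ∀ k, F k a = 0 := by
    intro k
    obtain ⟨z, hz⟩ := hpar k a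
    rw [(hGa k).1, hG0a.1] at hz
    have hb := honD (F k) 0 (iFD k)
    have h := hfive (F k) {t0} (by
      intro x hx; rw [Finset.mem_singleton.1 hx]; exact ⟨hat.symm, fun j => (hbt j).symm⟩)
    rw [iFF, if_pos rfl, Finset.sum_singleton, hFt] at h
    simp only [hb, Finset.sum_const, Finset.card_univ, Fintype.card_fin, nsmul_eq_mul, mul_zero, sub_zero] at h
    push_cast at h
    have b1 : -1 ≤ F k a := by nlinarith [sq_nonneg (F k a + 1)]
    have b2 : F k a ≤ 1 := by nlinarith [sq_nonneg (F k a - 1)]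
    omega
  have hFG : ∀ k l, G l (P₀ l) * F k (P₀ l) + G l (Q₀ l) * F k (Q₀ l) = 0 := by
    intro k l
    have h := iFG k l
    rw [Finset.sum_congr rfl fun x _ => mul_comm _ _, hwith, hFa] at h
    linarith
  have hFG0 : ∀ k, ∑ x ∈ S0, R0 x * F k x = 1 := by
    intro k
    have h := iFG0 k
    rw [Finset.sum_congr rfl fun x _ => mul_comm _ _, hwith0, hFa, hFt] at h
    linarith
  have hodd : ∀ k x, G k x + G0 x = 1 ∨ G k x + G0 x = -1 → 1 ≤ F k x * F k x := by
    intro k x h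
    obtain ⟨z, hz⟩ := hpar k x
    have hne : F k x ≠ 0 := by omega
    exact Int.add_one_le_iff.2 (mul_self_pos.2 hne)
  -- saturation
  have hsat : ∀ k, P₀ k ∉ S0 → Q₀ k ∉ S0 →
      (∀ x, x = t0 ∨ x = P₀ k ∨ x = Q₀ k ∨ x ∈ S0 → F k x * F k x = 1) ∧
        ∀ x, x ≠ t0 → x ≠ P₀ k → x ≠ Q₀ k → x ∉ S0 → F k x = 0 := by
    intro k hP hQ
    set T : Finset X := insert t0 (insert (P₀ k) (insert (Q₀ k) S0)) with hT
    have n1 : Q₀ k ∉ S0 := hQ
    have n2 : P₀ k ∉ insert (Q₀ k) S0 := by simp [hPQ₀ k, hP]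
    have n3 : t0 ∉ insert (P₀ k) (insert (Q₀ k) S0) := by
      simp only [Finset.mem_insert, not_or]
      exact ⟨(hP₀t k).symm, (hQ₀t k).symm, fun h => (hS0ne t0 h).1 rfl⟩
    have hTc : T.card = 6 := by
      rw [hT, Finset.card_insert_of_notMem n3, Finset.card_insert_of_notMem n2, Finset.card_insert_of_notMem n1, hS3]
    have hge : ∀ x ∈ T, 1 ≤ F k x * F k x := by
      intro x hx
      simp only [hT, Finset.mem_insert] at hx
      rcases hx with rfl | rfl | rfl | hx
      · rw [hFt]; norm_num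
      · refine hodd k _ ?_
        rw [show G0 (P₀ k) = 0 by rw [hG0x, ind_ne (hP₀t k), ind_ne (hP₀a k), show R0 (P₀ k) = 0 by simpa [hS0] using hP]; ring,
          add_zero]
        exact mul_self_eq_one_iff.1 (hp₀ k)
      · refine hodd k _ ?_
        rw [show G0 (Q₀ k) = 0 by rw [hG0x, ind_ne (hQ₀t k), ind_ne (hQ₀a k), show R0 (Q₀ k) = 0 by simpa [hS0] using hQ]; ring,
          add_zero]
        exact mul_self_eq_one_iff.1 (hq₀ k)
      · obtain ⟨-, h2, -, h4, h5⟩ := hS0ne x hx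
        refine hodd k _ ?_
        rw [h4, show G k x = 0 by
          rw [hGx k x, ind_ne h2, ind_ne (show x ≠ P₀ k from fun e => hP (e ▸ hx)),
            ind_ne (show x ≠ Q₀ k from fun e => hQ (e ▸ hx))]; ring, zero_add]
        exact mul_self_eq_one_iff.1 h5
    have htot := iFF k k
    rw [if_pos rfl, ← Finset.sum_sdiff (Finset.subset_univ T)] at htot
    have hlow := Finset.card_nsmul_le_sum T (fun x => F k x * F k x) 1 hge
    rw [hTc, nsmul_eq_mul, Nat.cast_ofNat, mul_one] at hlow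
    have hout0 := Finset.sum_nonneg (s := Finset.univ \ T) fun x _ => mul_self_nonneg (F k x)
    constructor
    · intro x hx
      have hxT : x ∈ T := by simpa [hT] using hx
      refine le_antisymm ?_ (hge x hxT)
      have h := Finset.card_nsmul_le_sum (T.erase x) (fun y => F k y * F k y) 1 fun y hy =>
        hge y (Finset.mem_of_mem_erase hy)
      rw [Finset.card_erase_of_mem hxT, hTc, nsmul_eq_mul, mul_one] at h
      rw [← Finset.add_sum_erase T _ hxT] at htot
      push_cast at h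
      linarith
    · intro x h1 h2 h3 h4
      have hx : x ∈ Finset.univ \ T := by simp [hT, h1, h2, h3, h4]
      exact mul_self_eq_zero.1 ((Finset.sum_eq_zero_iff_of_nonneg fun y _ => mul_self_nonneg (F k y)).1
        (by linarith) x hx)
  -- the pairs avoid the support of `R0`
  have hSum0 : ∀ k, G k (P₀ k) * R0 (P₀ k) + G k (Q₀ k) * R0 (Q₀ k) = 0 := by
    intro k
    have h := iG0G k
    rw [Finset.sum_congr rfl fun x _ => mul_comm _ _, hwith, hG0a.1, hG0x (P₀ k), hG0x (Q₀ k), ind_ne (hP₀t k),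
      ind_ne (hP₀a k), ind_ne (hQ₀t k), ind_ne (hQ₀a k)] at h
    linarith
  have hPQS : ∀ k, (P₀ k ∈ S0 ↔ Q₀ k ∈ S0) := by
    intro k
    simp only [hS0, Finset.mem_filter, Finset.mem_univ, true_and]
    have h := hSum0 k
    rcases mul_self_eq_one_iff.1 (hp₀ k) with a1 | a1 <;> rcases mul_self_eq_one_iff.1 (hq₀ k) with a2 | a2 <;>
      rw [a1, a2] at h <;> omega
  have hout : ∀ k, P₀ k ∉ S0 ∧ Q₀ k ∉ S0 := by
    intro k
    suffices P₀ k ∉ S0 from ⟨this, fun h => this ((hPQS k).2 h)⟩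
    intro hP
    have hQ := (hPQS k).1 hP
    have hl : ∀ l, l ≠ k → P₀ l ∉ S0 ∧ Q₀ l ∉ S0 := by
      intro l hlk
      suffices P₀ l ∉ S0 from ⟨this, fun h => this ((hPQS l).2 h)⟩
      intro hPl
      have hQl := (hPQS l).1 hPl
      have hne : ∀ x, (x = P₀ l ∨ x = Q₀ l) → x ≠ P₀ k ∧ x ≠ Q₀ k := by
        intro x hx
        have hx0 := hdisj l k hlk x hx
        exact ⟨fun e => by rw [e] at hx0; exact absurd (hp₀ k) (by rw [hx0]; norm_num),
          fun e => by rw [e] at hx0; exact absurd (hq₀ k) (by rw [hx0]; norm_num)⟩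
      have hsub : ({P₀ k, Q₀ k, P₀ l, Q₀ l} : Finset X) ⊆ S0 := by
        simp [Finset.insert_subset_iff, hP, hQ, hPl, hQl]
      have h4 : ({P₀ k, Q₀ k, P₀ l, Q₀ l} : Finset X).card = 4 := by
        rw [Finset.card_insert_of_notMem (by
            simp [hPQ₀ k, (hne _ (Or.inl rfl)).1.symm, (hne _ (Or.inr rfl)).1.symm]),
          Finset.card_insert_of_notMem (by
            simp [(hne _ (Or.inl rfl)).2.symm, (hne _ (Or.inr rfl)).2.symm]),
          Finset.card_pair (hPQ₀ l)]
      have := Finset.card_le_card hsub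
      omega
    obtain ⟨E, hE⟩ := Finset.card_eq_one.1 (show (S0 \ {P₀ k, Q₀ k}).card = 1 by
      rw [Finset.card_sdiff_of_subset (by simp [Finset.insert_subset_iff, hP, hQ]), hS3, Finset.card_pair (hPQ₀ k)])
    have hEm : E ∈ S0 ∧ E ∉ ({P₀ k, Q₀ k} : Finset X) := Finset.mem_sdiff.1 (hE ▸ Finset.mem_singleton_self E)
    have hSsplit : ∀ f : X → ℤ, ∑ x ∈ S0, f x = f E + (f (P₀ k) + f (Q₀ k)) := fun f => by
      rw [← Finset.sum_sdiff (show ({P₀ k, Q₀ k} : Finset X) ⊆ S0 by simp [Finset.insert_subset_iff, hP, hQ]), hE,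
        Finset.sum_singleton, Finset.sum_pair (hPQ₀ k)]
    have hf : ∀ l, l ≠ k → F l E = -R0 E ∧ F l (P₀ k) = R0 (P₀ k) ∧ F l (Q₀ k) = R0 (Q₀ k) := by
      intro l hlk
      obtain ⟨hs1, -⟩ := hsat l (hl l hlk).1 (hl l hlk).2
      have u1 := mul_self_eq_one_iff.1 (hs1 E (Or.inr (Or.inr (Or.inr hEm.1))))
      have u2 := mul_self_eq_one_iff.1 (hs1 _ (Or.inr (Or.inr (Or.inr hP))))
      have u3 := mul_self_eq_one_iff.1 (hs1 _ (Or.inr (Or.inr (Or.inr hQ))))
      have v1 := mul_self_eq_one_iff.1 (hS0ne E hEm.1).2.2.2.2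
      have v2 := mul_self_eq_one_iff.1 (hS0ne _ hP).2.2.2.2
      have v3 := mul_self_eq_one_iff.1 (hS0ne _ hQ).2.2.2.2
      have e1 := hSum0 k
      have e2 := hFG l k
      have e3 := hFG0 l
      rw [hSsplit] at e3
      rcases mul_self_eq_one_iff.1 (hp₀ k) with a1 | a1 <;> rcases mul_self_eq_one_iff.1 (hq₀ k) with a2 | a2 <;>
        rw [a1, a2] at e1 e2 <;> rcases v1 with w1 | w1 <;> rcases v2 with w2 | w2 <;> rcases v3 with w3 | w3 <;>
        rw [w1, w2, w3] at e3 ⊢ <;> rw [w2, w3] at e1 <;> omega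
    obtain ⟨l, m, hlk, hmk, hlm⟩ : ∃ l m : Fin 3, l ≠ k ∧ m ≠ k ∧ l ≠ m := by clear * - k; revert k; decide
    have h := iFF l m
    rw [if_neg hlm] at h
    obtain ⟨-, hz⟩ := hsat l (hl l hlk).1 (hl l hlk).2
    obtain ⟨-, hz'⟩ := hsat m (hl m hmk).1 (hl m hmk).2
    have hsum : ∑ x, F l x * F m x = ∑ x ∈ insert t0 S0, F l x * F m x :=
      (Finset.sum_subset (Finset.subset_univ _) fun x _ hx => by
        simp only [Finset.mem_insert, not_or] at hx
        by_cases hxl : x = P₀ l ∨ x = Q₀ l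
        · have h0 := hdisj l m hlm x hxl
          have hxm : x ≠ P₀ m ∧ x ≠ Q₀ m :=
            ⟨fun e => by rw [e] at h0; exact absurd (hp₀ m) (by rw [h0]; norm_num),
              fun e => by rw [e] at h0; exact absurd (hq₀ m) (by rw [h0]; norm_num)⟩
          rw [hz' x hx.1 hxm.1 hxm.2 hx.2, mul_zero]
        · push Not at hxl
          rw [hz x hx.1 hxl.1 hxl.2 hx.2, zero_mul]).symm
    rw [hsum, Finset.sum_insert (fun h => (hS0ne t0 h).1 rfl), hFt, hFt, hSsplit, (hf l hlk).1, (hf l hlk).2.1,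
      (hf l hlk).2.2, (hf m hmk).1, (hf m hmk).2.1, (hf m hmk).2.2] at h
    have := (hS0ne E hEm.1).2.2.2.2
    have := (hS0ne _ hP).2.2.2.2
    have := (hS0ne _ hQ).2.2.2.2
    linarith
  -- order each pair
  have horder : ∀ k, ∃ P Q : X, P ≠ Q ∧ (P = P₀ k ∧ Q = Q₀ k ∨ P = Q₀ k ∧ Q = P₀ k) ∧
      F k P = G k P ∧ F k Q = -G k Q := by
    intro k
    obtain ⟨h1, -⟩ := hsat k (hout k).1 (hout k).2
    have u1 := mul_self_eq_one_iff.1 (h1 _ (Or.inr (Or.inl rfl)))
    have u2 := mul_self_eq_one_iff.1 (h1 _ (Or.inr (Or.inr (Or.inl rfl))))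
    have e2 := hFG k k
    have v1 := mul_self_eq_one_iff.1 (hp₀ k)
    have v2 := mul_self_eq_one_iff.1 (hq₀ k)
    by_cases hcase : F k (P₀ k) = G k (P₀ k)
    · refine ⟨P₀ k, Q₀ k, hPQ₀ k, Or.inl ⟨rfl, rfl⟩, hcase, ?_⟩
      rcases v1 with a1 | a1 <;> rcases v2 with a2 | a2 <;> rw [a1, a2] at e2 <;> rw [a1] at hcase <;> omega
    · refine ⟨Q₀ k, P₀ k, (hPQ₀ k).symm, Or.inr ⟨rfl, rfl⟩, ?_, ?_⟩ <;>
        (rcases v1 with a1 | a1 <;> rcases v2 with a2 | a2 <;> rw [a1, a2] at e2 <;> rw [a1] at hcase <;> omega)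
  choose P Q hPQ hcase hFP hFQ using horder
  -- the negative point
  have hC : ∀ k, ∃ C ∈ S0, F k C = -R0 C ∧ ∀ x ∈ S0, x ≠ C → F k x = R0 x := by
    intro k
    obtain ⟨h1, -⟩ := hsat k (hout k).1 (hout k).2
    have hpm : ∀ x ∈ S0, F k x = R0 x ∨ F k x = -R0 x := fun x hx => by
      rcases mul_self_eq_one_iff.1 (h1 x (Or.inr (Or.inr (Or.inr hx)))) with e1 | e1 <;>
        rcases mul_self_eq_one_iff.1 (hS0ne x hx).2.2.2.2 with e2 | e2 <;> omega
    set N := S0.filter fun x => F k x = -R0 x with hN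
    have hval : ∀ x ∈ S0, R0 x * F k x = if F k x = -R0 x then -1 else 1 := fun x hx => by
      have h5 := (hS0ne x hx).2.2.2.2
      split_ifs with h
      · rw [h]; linarith
      · rw [(hpm x hx).resolve_right h]; exact h5
    have h := hFG0 k
    rw [Finset.sum_congr rfl hval, Finset.sum_ite] at h
    simp only [Finset.sum_const, nsmul_eq_mul, mul_neg, mul_one] at h
    have hc := Finset.card_filter_add_card_filter_not (s := S0) (p := fun x => F k x = -R0 x)
    obtain ⟨C, hCN⟩ := Finset.card_eq_one.1 (show N.card = 1 by simp only [hN]; omega)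
    have hCm : C ∈ S0 ∧ F k C = -R0 C := Finset.mem_filter.1 (hN ▸ hCN ▸ Finset.mem_singleton_self C)
    refine ⟨C, hCm.1, hCm.2, fun x hx hxC => (hpm x hx).resolve_right fun e => hxC ?_⟩
    exact Finset.mem_singleton.1 (hCN ▸ hN ▸ Finset.mem_filter.2 ⟨hx, e⟩)
  choose C hCS hCneg hCpos using hC
  have hCinj : Function.Injective C := by
    intro k l e
    by_contra hkl
    have h := iFF k l
    rw [if_neg hkl] at h
    obtain ⟨-, hz⟩ := hsat k (hout k).1 (hout k).2
    obtain ⟨-, hz'⟩ := hsat l (hout l).1 (hout l).2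
    have hsum : ∑ x, F k x * F l x = ∑ x ∈ insert t0 S0, F k x * F l x :=
      (Finset.sum_subset (Finset.subset_univ _) fun x _ hx => by
        simp only [Finset.mem_insert, not_or] at hx
        by_cases hxk : x = P₀ k ∨ x = Q₀ k
        · have h0 := hdisj k l hkl x hxk
          have hxl : x ≠ P₀ l ∧ x ≠ Q₀ l :=
            ⟨fun e => by rw [e] at h0; exact absurd (hp₀ l) (by rw [h0]; norm_num),
              fun e => by rw [e] at h0; exact absurd (hq₀ l) (by rw [h0]; norm_num)⟩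
          rw [hz' x hx.1 hxl.1 hxl.2 hx.2, mul_zero]
        · push Not at hxk
          rw [hz x hx.1 hxk.1 hxk.2 hx.2, zero_mul]).symm
    rw [hsum, Finset.sum_insert (fun h => (hS0ne t0 h).1 rfl), hFt, hFt,
      Finset.sum_congr rfl (g := fun _ => (1 : ℤ)) fun x hx => ?_] at h
    · simp [hS3] at h
    · have h5 := (hS0ne x hx).2.2.2.2
      by_cases hxC : x = C k
      · rw [hxC, hCneg k, show F l (C k) = -R0 (C k) by rw [e, hCneg l]]
        rw [hxC] at h5
        linarith
      · rw [hCpos k x hx hxC, hCpos l x hx (e ▸ hxC)]; exact h5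
  have hS0C : S0 = Finset.univ.image C := (Finset.eq_of_subset_of_card_le (fun x hx => by
    obtain ⟨k, -, rfl⟩ := Finset.mem_image.1 hx; exact hCS k)
    (by rw [Finset.card_image_of_injective _ hCinj, Finset.card_univ, Fintype.card_fin, hS3])).symm
  have hR0C : ∀ x, R0 x = ∑ k, R0 (C k) * ind (C k) x := by
    intro x
    by_cases hx : x ∈ S0
    · rw [hS0C] at hx
      obtain ⟨k, -, rfl⟩ := Finset.mem_image.1 hx
      rw [Finset.sum_eq_single k (fun l _ hl => by rw [ind_ne (hCinj.ne (Ne.symm hl)), mul_zero]) (by simp),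
        ind_self, mul_one]
    · rw [show R0 x = 0 by simpa [hS0] using hx, Finset.sum_eq_zero]
      intro k _
      rw [ind_ne (show x ≠ C k from fun e => hx (e ▸ hCS k)), mul_zero]
  have hPmem : ∀ k, (P k = P₀ k ∨ P k = Q₀ k) ∧ (Q k = P₀ k ∨ Q k = Q₀ k) := fun k => by
    rcases hcase k with ⟨e1, e2⟩ | ⟨e1, e2⟩ <;> simp [e1, e2]
  have hGP : ∀ k, G k (P k) * G k (P k) = 1 ∧ G k (Q k) * G k (Q k) = 1 := fun k => by
    rcases hcase k with ⟨e1, e2⟩ | ⟨e1, e2⟩ <;> rw [e1, e2]
    · exact ⟨hp₀ k, hq₀ k⟩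
    · exact ⟨hq₀ k, hp₀ k⟩
  have hCout : ∀ k l, C k ≠ P₀ l ∧ C k ≠ Q₀ l := fun k l =>
    ⟨fun e => (hout l).1 (e ▸ hCS k), fun e => (hout l).2 (e ▸ hCS k)⟩
  refine ⟨a, b, s, P, Q, C, fun k => G k (P k), fun k => G k (Q k), fun k => R0 (C k), ha,
    fun k => ⟨(hGP k).1, (hGP k).2, (hS0ne _ (hCS k)).2.2.2.2⟩, hDx, fun k x => ?_, fun x => ?_, fun k x => ?_,
    fun k => ⟨fun j => ?_, fun l => ?_, ?_, fun l => ?_⟩⟩
  · show G k x = _
    dsimp only
    rcases hcase k with ⟨e1, e2⟩ | ⟨e1, e2⟩ <;> rw [e1, e2]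
    · exact hGx k x
    · rw [hGx k x]; ring
  · show G0 x = _
    rw [hG0x, hR0C x]
  · show F k x = _
    obtain ⟨-, hz⟩ := hsat k (hout k).1 (hout k).2
    have hPk := hPmem k
    by_cases hxt : x = t0
    · subst hxt
      rw [ind_ne (show x ≠ P k from fun e => by rcases hPk.1 with e' | e' <;> [exact hP₀t k (e'.symm.trans e.symm); exact hQ₀t k (e'.symm.trans e.symm)]),
        ind_ne (show x ≠ Q k from fun e => by rcases hPk.2 with e' | e' <;> [exact hP₀t k (e'.symm.trans e.symm); exact hQ₀t k (e'.symm.trans e.symm)]),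
        Finset.sum_eq_zero fun l _ => by rw [ind_ne (hS0ne _ (hCS l)).1.symm, mul_zero], ind_self, hFt]
      ring
    by_cases hxS : x ∈ S0
    · have hxP : x ≠ P k ∧ x ≠ Q k := ⟨fun e => by
          rcases hPk.1 with e' | e' <;> [exact (hout k).1 (e' ▸ e ▸ hxS); exact (hout k).2 (e' ▸ e ▸ hxS)],
        fun e => by
          rcases hPk.2 with e' | e' <;> [exact (hout k).1 (e' ▸ e ▸ hxS); exact (hout k).2 (e' ▸ e ▸ hxS)]⟩
      rw [hS0C] at hxS
      obtain ⟨m, -, rfl⟩ := Finset.mem_image.1 hxS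
      rw [ind_ne hxt, ind_ne hxP.1, ind_ne hxP.2, Finset.sum_eq_single m
        (fun l _ hl => by rw [ind_ne (hCinj.ne (Ne.symm hl)), mul_zero]) (by simp), ind_self]
      by_cases hmk : m = k
      · subst hmk; rw [if_pos rfl, hCneg]; ring
      · rw [if_neg hmk, hCpos k _ (hCS m) (hCinj.ne hmk)]; ring
    rw [Finset.sum_eq_zero fun l _ => by rw [ind_ne (show x ≠ C l from fun e => hxS (e ▸ hCS l)), mul_zero]]
    by_cases hxP : x = P k
    · subst hxP; rw [ind_self, ind_ne hxt, ind_ne (hPQ k), hFP]; ring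
    by_cases hxQ : x = Q k
    · subst hxQ; rw [ind_self, ind_ne hxt, ind_ne (hPQ k).symm, hFQ]; ring
    rw [ind_ne hxt, ind_ne hxP, ind_ne hxQ]
    rcases hcase k with ⟨e1, e2⟩ | ⟨e1, e2⟩
    · rw [hz x hxt (e1 ▸ hxP) (e2 ▸ hxQ) hxS]; ring
    · rw [hz x hxt (e2 ▸ hxQ) (e1 ▸ hxP) hxS]; ring
  · show D j (C k) = 0
    obtain ⟨-, h2, h3, -, -⟩ := hS0ne _ (hCS k)
    rw [hDx, ind_ne h2, ind_ne (h3 j)]; ring
  · show G l (C k) = 0
    rw [hGx, ind_ne (hS0ne _ (hCS k)).2.1, ind_ne (hCout k l).1, ind_ne (hCout k l).2]; ring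
  · exact (hS0ne _ (hCS k)).2.2.2.1
  · show F l (C k) = _
    by_cases hkl : k = l
    · subst hkl; rw [if_pos rfl, hCneg]; ring
    · rw [if_neg hkl, hCpos l _ (hCS k) (hCinj.ne hkl), one_mul]

end Cfsg.Agent.LAE62.Nine
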