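import Cfsg.Agent.LAE62.Nine.Coherent
import Cfsg.Agent.LAE62.SylowBasics
import Cfsg.Agent.CharInd.Basic
import Cfsg.Agent.Brauer.CharBasics
import Cfsg.Agent.Coprime.Action
import Cfsg.Agent.OddLocal.NoncyclicAction
import Mathlib.GroupTheory.Transfer

/-!
A strongly 3-embedded subgroup of order 108 of the shape of `Nine.M` is the whole group.
-/

set_option autoImplicit false
set_option linter.style.haveILetI false

open Subgroup

namespace Cfsg.Agent.LAE62.Nine

open Cfsg
open scoped ComplexConjugate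

universe u

/-- The hypotheses. -/
structure Hyp {G : Type u} [Group G] (H T : Subgroup G) (e : H ≃* M) : Prop where
  mem_iff : ∀ h : H, (h : G) ∈ T ↔ e h ^ 3 = 1
  le : T ≤ H
  norm : normalizer (T : Set G) = H
  cent : ∀ t ∈ T, t ≠ 1 → centralizer ({t} : Set G) ≤ H

/-- `h` has order divisible by `3`. -/
def Sing {L : Type*} [Group L] (h : L) : Prop := h * h ≠ 1

theorem comm_three (x y : M) (hx : x ^ 3 = 1) (hy : y ^ 3 = 1) : x * y = y * x := by
  have h : ∀ x : {x : M // x ^ 3 = 1}, ∀ y : {x : M // x ^ 3 = 1}, x.1 * y.1 = y.1 * x.1 := by decide +kernel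
  exact h ⟨x, hx⟩ ⟨y, hy⟩

theorem sq_three : ∀ x : M, x * x ≠ 1 → (x ^ 2) ^ 3 = 1 := by decide +kernel

/-- The integer values of `vecPhi`. -/
def phiVal (x : M) : ℤ := (∑ t : Fin 13, vecPhi t.castSucc.castSucc * tab t x) + vecPhi 13 * pairVal x

theorem phiVal_prod : ∀ x y : M, x * x = 1 → y * y = 1 → phiVal (x * y) = 0 := by decide +kernel

variable {G : Type u} [Group G] [Finite G] {H T : Subgroup G} {e : H ≃* M}

theorem Hyp.mem_of_conj (hy : Hyp H T e) {g : G} {h : H} (hs : Sing h) (hg : g * h * g⁻¹ ∈ H) : g ∈ H := by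
  set t : G := (h : G) ^ 2 with ht
  have hs' : e h * e h ≠ 1 := fun e' => hs (e.injective (by rw [map_mul, map_one]; exact e'))
  have htT : t ∈ T := by
    have := (hy.mem_iff (h ^ 2)).2 (by rw [map_pow]; exact sq_three _ hs')
    simpa [ht] using this
  have ht1 : t ≠ 1 := fun e' => hs (Subtype.ext (by rw [ht, pow_two] at e'; simpa using e'))
  have hcube : ∀ x ∈ T, x ^ 3 = 1 := fun x hx => by
    have h' := (hy.mem_iff ⟨x, hy.le hx⟩).1 hx
    rw [← map_pow, ← map_one e] at h'
    simpa using congrArg Subtype.val (e.injective h')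
  have hcube' : ∀ x : G, x ∈ H → x ^ 3 = 1 → x ∈ T := fun x hx h3 =>
    (hy.mem_iff ⟨x, hx⟩).2 (by rw [← map_pow, show (⟨x, hx⟩ : H) ^ 3 = 1 from Subtype.ext h3, map_one])
  have hcomm : ∀ x ∈ T, ∀ y ∈ T, x * y = y * x := fun x hx y hy' => by
    have h' := comm_three _ _ ((hy.mem_iff ⟨x, hy.le hx⟩).1 hx) ((hy.mem_iff ⟨y, hy.le hy'⟩).1 hy')
    rw [← map_mul, ← map_mul] at h'
    exact congrArg Subtype.val (e.injective h')
  have ht' : g * t * g⁻¹ ∈ T := by
    refine hcube' _ ?_ (by rw [conj_pow, hcube t htT, mul_one, mul_inv_cancel])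
    rw [show g * t * g⁻¹ = (g * h * g⁻¹) * (g * h * g⁻¹) by rw [ht, pow_two]; group]
    exact H.mul_mem hg hg
  have ht1' : g * t * g⁻¹ ≠ 1 := by rwa [Ne, mul_inv_eq_one, mul_eq_left]
  have hT : ∀ x ∈ T, g * x * g⁻¹ ∈ T := by
    intro x hx
    refine hcube' _ (hy.cent _ ht' ht1' (mem_centralizer_singleton_iff.2 ?_))
      (by rw [conj_pow, hcube x hx, mul_one, mul_inv_cancel])
    calc g * x * g⁻¹ * (g * t * g⁻¹) = g * (x * t) * g⁻¹ := by group
      _ = g * (t * x) * g⁻¹ := by rw [hcomm x hx t htT]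
      _ = g * t * g⁻¹ * (g * x * g⁻¹) := by group
  rw [← hy.norm]
  exact LAE62.mem_normalizer_of_conj_mem hT

/-- A supported combination of characters of `H`. -/
noncomputable def comb (R : Fin 15 → IrrCharacter H) (c : Fin 15 → ℤ) : H → ℂ :=
  fun h => ∑ t, (c t : ℂ) * (R t : H → ℂ) h

theorem classInner_comb [Fintype H] (R : Fin 15 → IrrCharacter H) (hR : Function.Injective R) (c c' : Fin 15 → ℤ) :
    classInner (comb R c) (comb R c') = ((∑ t, c t * c' t : ℤ) : ℂ) := by
  classical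
  have e1 : ∀ c, comb R c = ∑ t, (c t : ℂ) • (R t : H → ℂ) := fun c => by
    funext h; simp [comb, Finset.sum_apply]
  rw [e1, e1, Char.classInner_sum_left]
  push_cast
  refine Finset.sum_congr rfl fun t _ => ?_
  rw [Char.classInner_smul_left, Char.classInner_sum_right, Finset.sum_eq_single t]
  · rw [Char.classInner_smul_right, Char.classInner_irr_self (R t).2, map_intCast, mul_one]
  · intro t' _ ht'
    rw [Char.classInner_smul_right, Char.classInner_irr_ne (R t).2 (R t').2
      fun e' => ht' (hR (Subtype.ext e')).symm, mul_zero]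
  · simp

theorem det_mod_three {U : Matrix (Fin 3) (Fin 3) ℤ} (h : ∀ i j, (U i j : ZMod 3) = if i = j then 0 else 1) :
    U.det ≠ 0 := by
  intro h0
  have h1 : ((U.det : ℤ) : ZMod 3) = 0 := by rw [h0]; simp
  rw [Matrix.det_fin_three] at h1
  push_cast [h] at h1
  revert h1
  decide

/-- The form coming from the class algebra forces the degrees to be one. -/
theorem degrees_eq_one {a : Fin 3 → ℂ} {N : ℂ} (hN : N = 1 + a 0 + a 1 + a 2) (hN0 : N ≠ 0)
    (hQ : ∀ k : Fin 3, (∑ l, a l) - a k ≠ 0) (ha : ∀ k, a k ≠ 0) (hP : ∀ k, 1 + a k ≠ 0)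
    (U : Matrix (Fin 3) (Fin 3) ℤ) (hU : U.det ≠ 0)
    (hB : ∀ i j, (∑ k, (U i k : ℂ) * U j k / a k) - (∑ k, (U i k : ℂ)) * (∑ k, (U j k : ℂ)) / N -
      ∑ k, ((U i k : ℂ) * U j k / (1 + a k) +
        ((∑ l, (U i l : ℂ)) - U i k) * ((∑ l, (U j l : ℂ)) - U j k) / ((∑ l, a l) - a k) -
        (∑ l, (U i l : ℂ)) * (∑ l, (U j l : ℂ)) / N) = 0) :
    ∀ k, a k = 1 := by
  set V : Matrix (Fin 3) (Fin 3) ℂ := U.map (fun z : ℤ => (z : ℂ)) with hV
  set Q : Fin 3 → ℂ := fun k => (∑ l, a l) - a k with hQdef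
  set B : Matrix (Fin 3) (Fin 3) ℂ := Matrix.of fun i j =>
    (if i = j then 1 / a i - 1 / (1 + a i) else 0) + 2 / N -
      ∑ k, (if i = k ∨ j = k then 0 else 1 / Q k) with hBdef
  have hVB : V * B * V.transpose = 0 := by
    ext i j
    rw [Matrix.zero_apply, ← hB i j]
    simp only [Matrix.mul_apply, Matrix.transpose_apply, hV, Matrix.map_apply, hBdef, Matrix.of_apply,
      Fin.sum_univ_three, hQdef]
    simp [Fin.ext_iff]
    ring
  have hd : IsUnit V.det := by
    rw [show V = U.map (Int.castRingHom ℂ) from rfl, ← RingHom.mapMatrix_apply, ← RingHom.map_det]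
    exact isUnit_iff_ne_zero.2 (by simpa using hU)
  have hd' : IsUnit V.transpose.det := by rwa [Matrix.det_transpose]
  have hB0 : B = 0 := by
    have : V⁻¹ * (V * B * V.transpose) * V.transpose⁻¹ = B := by
      rw [← Matrix.mul_assoc V⁻¹, ← Matrix.mul_assoc V⁻¹, Matrix.nonsing_inv_mul _ hd, Matrix.one_mul,
        Matrix.mul_assoc, Matrix.mul_nonsing_inv _ hd', Matrix.mul_one]
    rw [← this, hVB, Matrix.mul_zero, Matrix.zero_mul]
  have key : ∀ i j, i ≠ j → ∀ k, k ≠ i → k ≠ j → 2 * Q k = N := by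
    intro i j hij k hki hkj
    have h := congrFun (congrFun hB0 i) j
    rw [Matrix.zero_apply, hBdef, Matrix.of_apply, if_neg hij, zero_add, Finset.sum_eq_single k
      (fun l _ hl => by
        rw [if_pos]
        exact (show ∀ i j k l : Fin 3, i ≠ j → k ≠ i → k ≠ j → l ≠ k → i = l ∨ j = l by decide) i j k l hij hki hkj hl)
      (by simp), if_neg (by simp [Ne.symm hki, Ne.symm hkj])] at h
    rw [sub_eq_zero, div_eq_div_iff hN0 (hQ k), one_mul] at h
    exact h
  have k0 := key 1 2 (by decide) 0 (by decide) (by decide)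
  have k1 := key 0 2 (by decide) 1 (by decide) (by decide)
  have k2 := key 0 1 (by decide) 2 (by decide) (by decide)
  simp only [hQdef, Fin.sum_univ_three, hN] at k0 k1 k2
  intro k
  fin_cases k
  · show a 0 = 1
    linear_combination (k1 + k2) / 2
  · show a 1 = 1
    linear_combination (k0 + k2) / 2
  · show a 2 = 1
    linear_combination (k0 + k1) / 2

set_option maxHeartbeats 1600000 in
/-- The three linear characters. -/
theorem exists_linear (hy : Hyp H T e) :
    ∃ C : Fin 3 → IrrCharacter G, ∀ k, (C k : G → ℂ) 1 = 1 ∧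
      (∀ j : Fin 3, (C k : G → ℂ) (e.symm (regEl j.succ) : G) = if k = j then 1 else -1) ∧
      ∀ t ∈ T, (C k : G → ℂ) t = 1 := by
  classical
  haveI := Fintype.ofFinite G
  haveI := Fintype.ofFinite H
  obtain ⟨R₀, hR₀, htab, hpairR, hregR⟩ := exists_table
  let R : Fin 15 → IrrCharacter H := fun t =>
    ⟨fun h => (R₀ t : M → ℂ) (e h), Char.isIrrCharacter_comp (R₀ t).2 e.toMonoidHom e.surjective⟩
  have hRinj : Function.Injective R := fun t t' h => hR₀.1 (Subtype.ext (funext fun x => by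
    obtain ⟨y, rfl⟩ := e.surjective x
    exact congrFun (congrArg Subtype.val h) y))
  have hRsurj : Function.Surjective R := fun ψ => by
    obtain ⟨t, ht⟩ := hR₀.2 ⟨fun x => (ψ : H → ℂ) (e.symm x),
      Char.isIrrCharacter_comp ψ.2 e.symm.toMonoidHom e.symm.surjective⟩
    refine ⟨t, Subtype.ext (funext fun h => ?_)⟩
    show (R₀ t : M → ℂ) (e h) = _
    rw [ht]
    show (ψ : H → ℂ) (e.symm (e h)) = _
    rw [MulEquiv.symm_apply_apply]
  choose n hn using fun (χ : IrrCharacter G) (t : Fin 15) =>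
    Char.isCharacter_classInner_nat (Char.isCharacter_restrict (Char.isCharacter_of_irr χ.2) H) (R t)
  set r : IrrCharacter G → Fin 15 → ℤ := fun χ t => (n χ t : ℤ) with hr
  have hn' : ∀ (χ : IrrCharacter G) t, classInner (fun h : H => (χ : G → ℂ) h) (R t : H → ℂ) = (r χ t : ℂ) := fun χ t => by
    rw [hr]; push_cast; exact hn χ t
  have hres : ∀ (χ : IrrCharacter G) (h : H), (χ : G → ℂ) h = ∑ t, (r χ t : ℂ) * (R t : H → ℂ) h := by
    intro χ h
    have h1 := congrFun (Char.eq_sum_classInner_smul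
      (Char.isCharacter_isClassFunction (Char.isCharacter_restrict (Char.isCharacter_of_irr χ.2) H))) h
    rw [Finset.sum_apply, ← Finset.sum_subset (Finset.subset_univ (Finset.univ.image R))
      (fun ψ _ hψ => absurd (by obtain ⟨t, rfl⟩ := hRsurj ψ; simp) hψ),
      Finset.sum_image fun a _ b _ h' => hRinj h'] at h1
    refine h1.trans (Finset.sum_congr rfl fun t _ => ?_)
    rw [Pi.smul_apply, smul_eq_mul]
    exact congrArg (· * (R t : H → ℂ) h) (hn' χ t)
  set rg : Fin 4 → G := fun j => (e.symm (regEl j) : G) with hrg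
  have hrgR : ∀ t j, (R t : H → ℂ) (e.symm (regEl j)) = regTab t j := fun t j => by
    show (R₀ t : M → ℂ) (e (e.symm (regEl j))) = _
    rw [MulEquiv.apply_symm_apply, hregR]
  have hval : ∀ (χ : IrrCharacter G) j, (χ : G → ℂ) (rg j) = ((∑ t, r χ t * regTab t j : ℤ) : ℂ) := fun χ j => by
    rw [hrg, hres χ (e.symm (regEl j))]
    push_cast
    exact Finset.sum_congr rfl fun t _ => by rw [hrgR]
  -- supported combinations
  have hsupp : ∀ c, Supported c → ∀ h : H, ¬ Sing h → comb R c h = 0 := by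
    intro c hc h hs
    rw [Sing, not_not] at hs
    obtain ⟨j, u, hu⟩ := conj_regEl (e h) (by rw [← map_mul, hs, map_one])
    have h1 : ∀ t, (R t : H → ℂ) h = regTab t j := fun t => by
      show (R₀ t : M → ℂ) (e h) = _
      rw [← hu, Char.irr_isClassFunction (R₀ t).2 (regEl j) u, hregR]
    simp only [comb, h1]
    exact_mod_cast congrArg (fun z : ℤ => (z : ℂ)) (hc j)
  set τ : (Fin 15 → ℤ) → G → ℂ := fun c => indFun H (comb R c) with hτ
  have hcombcl : ∀ c, IsClassFunction H (comb R c) := fun c x y => by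
    simp only [comb]
    exact Finset.sum_congr rfl fun t _ => by rw [Char.irr_isClassFunction (R t).2 x y]
  have hτsing : ∀ c, Supported c → ∀ h : H, τ c h = comb R c h ∨ ¬ Sing h := by
    intro c hc h
    by_cases hs : Sing h
    · left
      simp only [hτ, indFun]
      rw [← Finset.sum_subset (Finset.subset_univ (Finset.univ.filter fun x : G => x ∈ H))
        (fun x _ hx => ?_)]
      · rw [Finset.sum_congr rfl (g := fun _ => comb R c h) fun x hx => ?_, Finset.sum_const, nsmul_eq_mul,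
          ← mul_assoc]
        · rw [show ((Finset.univ.filter fun x : G => x ∈ H).card : ℂ) = (Nat.card H : ℂ) by
            rw [← Nat.card_eq_finsetCard]
            exact congrArg Nat.cast (Nat.card_congr (Equiv.subtypeEquivRight fun x => by simp)),
            inv_mul_cancel₀ (Nat.cast_ne_zero.2 Nat.card_pos.ne'), one_mul]
        · have hxH := (Finset.mem_filter.1 hx).2
          rw [show x⁻¹ * (h : G) * x = ((⟨x⁻¹, H.inv_mem hxH⟩ * h * ⟨x⁻¹, H.inv_mem hxH⟩⁻¹ : H) : G) by simp,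
            CharInd.extendByZero_coe]
          exact hcombcl c h _
      · have hxH : x ∉ H := by simpa using hx
        refine CharInd.extendByZero_notMem H _ fun hmem => hxH ?_
        have := hy.mem_of_conj hs (g := x⁻¹) (by rwa [inv_inv])
        simpa using H.inv_mem this
    · exact Or.inr hs
  have hτcl : ∀ c, IsClassFunction G (τ c) := fun c => CharInd.indFun_isClassFunction H _
  have hτχ : ∀ c, ∀ χ : IrrCharacter G, classInner (τ c) (χ : G → ℂ) = (pair r c χ : ℂ) := by
    intro c χ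
    rw [hτ, CharInd.classInner_indFun_left H _ (Char.irr_isClassFunction χ.2)]
    rw [show comb R c = ∑ t, (c t : ℂ) • (R t : H → ℂ) from funext fun h => by simp [comb, Finset.sum_apply],
      Char.classInner_sum_left, pair]
    push_cast
    refine Finset.sum_congr rfl fun t _ => ?_
    rw [Char.classInner_smul_left, ← Char.classInner_conj, hn', map_intCast]
  have hexpand : ∀ c g, τ c g = ∑ χ : IrrCharacter G, (pair r c χ : ℂ) * (χ : G → ℂ) g := fun c g => by
    have h1 := congrFun (Char.eq_sum_classInner_smul (hτcl c)) g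
    rw [Finset.sum_apply] at h1
    exact h1.trans (Finset.sum_congr rfl fun χ _ => by rw [Pi.smul_apply, smul_eq_mul, hτχ])
  have hτzero : ∀ c, Supported c → ∀ g : G, g * g = 1 → τ c g = 0 := by
    intro c hc g hg
    simp only [hτ, indFun]
    rw [Finset.sum_eq_zero, mul_zero]
    intro x _
    by_cases hx : x⁻¹ * g * x ∈ H
    · rw [CharInd.extendByZero_mem H _ hx]
      refine hsupp c hc _ fun hs => hs (Subtype.ext ?_)
      show x⁻¹ * g * x * (x⁻¹ * g * x) = 1
      rw [show x⁻¹ * g * x * (x⁻¹ * g * x) = x⁻¹ * (g * g) * x by group, hg, mul_one, inv_mul_cancel]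
    · exact CharInd.extendByZero_notMem H _ hx
  -- the input
  choose d hd0 hd using fun χ : IrrCharacter G => Char.irr_one_pos χ.2
  have hin : Input r (fun χ => (d χ : ℤ)) (Char.trivialIrr G) := by
    refine ⟨fun c c' hc hc' => ?_, fun c hc => ?_, fun χ => by exact_mod_cast hd0 χ, ?_⟩
    · have h1 : classInner (τ c) (τ c') = classInner (comb R c) (comb R c') := by
        rw [hτ, CharInd.classInner_indFun_left H _ (hτcl c')]
        simp only [classInner]
        congr 1
        refine Finset.sum_congr rfl fun h _ => ?_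
        rcases hτsing c' hc' h with h' | h'
        · rw [h']
        · rw [hsupp c hc h h', zero_mul, zero_mul]
      rw [classInner_comb R hRinj, Char.classInner_eq_sum_mul_conj (hτcl c)] at h1
      simp only [hτχ, map_intCast] at h1
      exact_mod_cast h1
    · have h1 := hexpand c 1
      rw [hτzero c hc 1 (one_mul 1)] at h1
      simp only [hd] at h1
      exact_mod_cast h1.symm
    · funext t
      have h1 := hn' (Char.trivialIrr G) t
      have e0 : (fun h : H => ((Char.trivialIrr G : IrrCharacter G) : G → ℂ) h) = (R 0 : H → ℂ) := funext fun h => by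
        show (1 : ℂ) = (R₀ (0 : Fin 13).castSucc.castSucc : M → ℂ) (e h)
        rw [htab]
        simp [tab, idx, prodVal, dchar]
      rw [e0, Char.classInner_irrCharacter] at h1
      simp only [Nine.e]
      by_cases ht : t = 0
      · subst ht; rw [if_pos rfl] at h1; rw [if_pos rfl]; exact_mod_cast h1.symm
      · rw [if_neg (fun h' => ht (hRinj h').symm)] at h1; rw [if_neg ht]; exact_mod_cast h1.symm
  obtain ⟨a, b, s, P, Q, C, p, q, η, hs, hpq, hD, hG, hG0, hF, hC⟩ := coherent hin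
  have hs' : (s : ℂ) * s = 1 := by exact_mod_cast hs
  -- sums against the vectors
  have hcast : ∀ (x y : IrrCharacter G), ((ind x y : ℤ) : ℂ) = if y = x then 1 else 0 := fun x y => by
    simp only [ind]; split_ifs <;> simp
  have SD : ∀ (w : IrrCharacter G → ℂ) j,
      ∑ χ, (pair r (vecD j) χ : ℂ) * w χ = (s : ℂ) * (w a - w (b j)) := fun w j => by
    simp [hD, hcast, sub_mul, Finset.sum_sub_distrib, mul_sub]
  have SG : ∀ (w : IrrCharacter G → ℂ) k, ∑ χ, (pair r (vecG k) χ : ℂ) * w χ =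
      -(s : ℂ) * w a + (p k : ℂ) * w (P k) + (q k : ℂ) * w (Q k) := fun w k => by
    simp [hG, hcast, add_mul, Finset.sum_add_distrib]
  have SG0 : ∀ w : IrrCharacter G → ℂ, ∑ χ, (pair r vecG0 χ : ℂ) * w χ =
      w (Char.trivialIrr G) - (s : ℂ) * w a + ∑ k, (η k : ℂ) * w (C k) := fun w => by
    simp [hG0, hcast, add_mul, sub_mul, Finset.sum_add_distrib, Finset.sum_sub_distrib, Fin.sum_univ_three]
  have SF : ∀ (w : IrrCharacter G → ℂ) k, ∑ χ, (pair r (vecF k) χ : ℂ) * w χ =
      -w (Char.trivialIrr G) + (p k : ℂ) * w (P k) - (q k : ℂ) * w (Q k) +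
        ∑ l, (if l = k then -1 else 1) * (η l : ℂ) * w (C l) := fun w k => by
    simp [hF, hcast, add_mul, sub_mul, Finset.sum_add_distrib, Finset.sum_sub_distrib, Fin.sum_univ_three,
      apply_ite (fun z : ℤ => (z : ℂ))]
  have sD : ∀ j, Supported (vecD j) := by unfold Supported; decide +kernel
  have sG : ∀ k, Supported (vecG k) := by unfold Supported; decide +kernel
  have sG0 : Supported vecG0 := by unfold Supported; decide +kernel
  have sF : ∀ k, Supported (vecF k) := by unfold Supported; decide +kernel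
  have sPhi : Supported vecPhi := by unfold Supported; decide +kernel
  have hzero : ∀ c, Supported c → ∀ g : G, g * g = 1 → ∑ χ, (pair r c χ : ℂ) * (χ : G → ℂ) g = 0 :=
    fun c hc g hg => by rw [← hexpand, hτzero c hc g hg]
  have hrsq : ∀ j, rg j * rg j = 1 := fun j => by
    show ((e.symm (regEl j) * e.symm (regEl j) : H) : G) = 1
    rw [← map_mul, show regEl j * regEl j = 1 by revert j; decide, map_one, OneMemClass.coe_one]
  have htriv : ∀ g, ((Char.trivialIrr G : IrrCharacter G) : G → ℂ) g = 1 := fun g => rfl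
  -- values at elements of order at most two
  set cc : Fin 3 → G → ℂ := fun k g => (η k : ℂ) * (C k : G → ℂ) g with hcc
  set N : G → ℂ := fun g => 1 + cc 0 g + cc 1 g + cc 2 g with hNdef
  have hlin : ∀ g : G, g * g = 1 → (∀ j, (b j : G → ℂ) g = (a : G → ℂ) g) ∧ (s : ℂ) * (a : G → ℂ) g = N g ∧
      ∀ k, (p k : ℂ) * (P k : G → ℂ) g = 1 + cc k g ∧
        (q k : ℂ) * (Q k : G → ℂ) g = (∑ l, cc l g) - cc k g := by
    intro g hg
    have hX : (s : ℂ) * (a : G → ℂ) g = N g := by
      have h := hzero _ sG0 g hg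
      rw [SG0, htriv, Fin.sum_univ_three] at h
      simp only [hNdef, hcc]
      linear_combination -h
    refine ⟨fun j => ?_, hX, fun k => ?_⟩
    · have h := hzero _ (sD j) g hg
      rw [SD] at h
      rcases mul_eq_zero.1 h with h | h
      · rw [h, mul_zero] at hs'; exact absurd hs' zero_ne_one
      · exact (sub_eq_zero.1 h).symm
    · have h1 := hzero _ (sG k) g hg
      have h2 := hzero _ (sF k) g hg
      rw [SG] at h1
      rw [SF, htriv] at h2
      simp only [hNdef, hcc] at hX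
      simp only [hcc, Fin.sum_univ_three] at h2 ⊢
      fin_cases k <;> simp at h1 h2 ⊢ <;> constructor
      all_goals first
        | linear_combination (h1 + h2 + hX) / 2
        | linear_combination (h1 - h2 + hX) / 2
  -- the class algebra
  have hphi : ∀ h : H, comb R vecPhi h = (phiVal (e h) : ℂ) := by
    intro h
    simp only [comb, Fin.sum_univ_castSucc (n := 14), Fin.sum_univ_castSucc (n := 13), phiVal]
    have e1 : ∀ t : Fin 13, (R t.castSucc.castSucc : H → ℂ) h = (tab t (e h) : ℂ) := fun t => htab t _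
    simp only [e1, show (Fin.last 13).castSucc = (13 : Fin 15) from rfl, show Fin.last 14 = (14 : Fin 15) from rfl,
      show vecPhi 14 = vecPhi 13 from by decide]
    push_cast
    rw [← hpairR (e h)]
    show _ + (vecPhi 13 : ℂ) * (R₀ 13 : M → ℂ) (e h) + (vecPhi 13 : ℂ) * (R₀ 14 : M → ℂ) (e h) = _
    ring
  have hQ : ∀ J K : G, J * J = 1 → K * K = 1 →
      ∑ χ, (pair r vecPhi χ : ℂ) * ((χ : G → ℂ) J * (χ : G → ℂ) K / (χ : G → ℂ) 1) = 0 := by
    intro J K hJ hK
    have hz : ∀ g : G, τ vecPhi (J * (g * K * g⁻¹)) = 0 := by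
      intro g
      simp only [hτ, indFun]
      rw [Finset.sum_eq_zero, mul_zero]
      intro x _
      by_cases hx : x⁻¹ * (J * (g * K * g⁻¹)) * x ∈ H
      swap
      · exact CharInd.extendByZero_notMem H _ hx
      rw [CharInd.extendByZero_mem H _ hx]
      set h : H := ⟨_, hx⟩ with hh
      by_cases hs1 : Sing h
      swap
      · exact hsupp _ sPhi _ hs1
      have hjH : x⁻¹ * J * x ∈ H := hy.mem_of_conj hs1 (g := x⁻¹ * J * x) (by
        rw [show (x⁻¹ * J * x) * (h : G) * (x⁻¹ * J * x)⁻¹ = (h : G)⁻¹ by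
          rw [hh]
          show x⁻¹ * J * x * (x⁻¹ * (J * (g * K * g⁻¹)) * x) * (x⁻¹ * J * x)⁻¹ = (x⁻¹ * (J * (g * K * g⁻¹)) * x)⁻¹
          simp only [_root_.mul_inv_rev, inv_inv, inv_eq_of_mul_eq_one_right hJ, inv_eq_of_mul_eq_one_right hK]
          calc _ = x⁻¹ * ((J * J) * (g * K * g⁻¹) * J) * x := by group
            _ = _ := by rw [hJ, one_mul]; group]
        exact H.inv_mem h.2)
      set j : H := ⟨_, hjH⟩ with hj
      have hj2 : j * j = 1 := Subtype.ext (by
        show x⁻¹ * J * x * (x⁻¹ * J * x) = 1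
        rw [show x⁻¹ * J * x * (x⁻¹ * J * x) = x⁻¹ * (J * J) * x by group, hJ, mul_one, inv_mul_cancel])
      have hk2 : (j * h) * (j * h) = 1 := Subtype.ext (by
        show x⁻¹ * J * x * (x⁻¹ * (J * (g * K * g⁻¹)) * x) * (x⁻¹ * J * x * (x⁻¹ * (J * (g * K * g⁻¹)) * x)) = 1
        calc _ = x⁻¹ * ((J * J) * (g * K * g⁻¹) * ((J * J) * (g * K * g⁻¹))) * x := by group
          _ = _ := by
            rw [hJ, one_mul, show g * K * g⁻¹ * (g * K * g⁻¹) = g * (K * K) * g⁻¹ by group, hK, mul_one,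
              mul_inv_cancel, mul_one, inv_mul_cancel])
      rw [hphi, show h = j * (j * h) by rw [← mul_assoc, hj2, one_mul], map_mul,
        phiVal_prod _ _ (by rw [← map_mul, hj2, map_one]) (by rw [← map_mul, hk2, map_one]), Int.cast_zero]
    have h1 : ∑ g : G, τ vecPhi (J * (g * K * g⁻¹)) = 0 := Finset.sum_eq_zero fun g _ => hz g
    simp only [hexpand] at h1
    rw [Finset.sum_comm] at h1
    simp only [← Finset.mul_sum] at h1
    have e1 : ∀ χ : IrrCharacter G, ∑ g : G, (χ : G → ℂ) (J * (g * K * g⁻¹)) =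
        (Nat.card G : ℂ) * ((χ : G → ℂ) J * (χ : G → ℂ) K / (χ : G → ℂ) 1) := fun χ => by
      rw [show (Nat.card G : ℂ) * ((χ : G → ℂ) J * (χ : G → ℂ) K / (χ : G → ℂ) 1) =
        (Nat.card G : ℂ) * (χ : G → ℂ) K * (χ : G → ℂ) J / (χ : G → ℂ) 1 by ring, ← Brauer.irr_conj_sum' χ.2 K J]
      exact Finset.sum_congr rfl fun g _ => Char.isClassFunction_mul_comm (Char.irr_isClassFunction χ.2) _ _
    simp only [e1] at h1
    rw [show (∑ χ, (pair r vecPhi χ : ℂ) * ((Nat.card G : ℂ) * ((χ : G → ℂ) J * (χ : G → ℂ) K / (χ : G → ℂ) 1))) =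
      (Nat.card G : ℂ) * ∑ χ, (pair r vecPhi χ : ℂ) * ((χ : G → ℂ) J * (χ : G → ℂ) K / (χ : G → ℂ) 1) by
        rw [Finset.mul_sum]; exact Finset.sum_congr rfl fun χ _ => by ring] at h1
    exact (mul_eq_zero.1 h1).resolve_left (Nat.cast_ne_zero.2 Nat.card_pos.ne')
  have hpairPhi : ∀ χ, pair r vecPhi χ = 2 * pair r vecG0 χ - 2 * pair r (vecG 0) χ - 2 * pair r (vecG 1) χ
      - 2 * pair r (vecG 2) χ - 2 * pair r (vecD 0) χ - 2 * pair r (vecD 1) χ + pair r (vecD 2) χ
      + pair r (vecD 3) χ := fun χ => by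
    simp only [pair, Finset.mul_sum, ← Finset.sum_sub_distrib, ← Finset.sum_add_distrib]
    refine Finset.sum_congr rfl fun t _ => ?_
    simp only [vecPhi, Pi.add_apply, Pi.sub_apply, Pi.smul_apply, smul_eq_mul]
    ring
  have hdiv : ∀ (z : ℤ) (χ : IrrCharacter G) (J K : G), z * z = 1 →
      (z : ℂ) * ((χ : G → ℂ) J * (χ : G → ℂ) K / (χ : G → ℂ) 1) =
        ((z : ℂ) * (χ : G → ℂ) J) * ((z : ℂ) * (χ : G → ℂ) K) / ((z : ℂ) * (χ : G → ℂ) 1) := fun z χ J K hz => by
    have hz' : (z : ℂ) ≠ 0 := Int.cast_ne_zero.2 fun h => by simp [h] at hz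
    field_simp
  set form : G → G → ℂ := fun J K =>
    1 + (∑ k, cc k J * cc k K / cc k 1) - N J * N K / N 1 -
      ∑ k, ((1 + cc k J) * (1 + cc k K) / (1 + cc k 1) +
        ((∑ l, cc l J) - cc k J) * ((∑ l, cc l K) - cc k K) / ((∑ l, cc l 1) - cc k 1) - N J * N K / N 1) with hform
  have hform0 : ∀ J K : G, J * J = 1 → K * K = 1 → form J K = 0 := by
    intro J K hJ hK
    obtain ⟨bJ, aJ, pJ⟩ := hlin J hJ
    obtain ⟨bK, aK, pK⟩ := hlin K hK
    obtain ⟨b1, a1, p1⟩ := hlin 1 (one_mul 1)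
    have h := hQ J K hJ hK
    simp only [hpairPhi] at h
    push_cast at h
    simp only [sub_mul, add_mul, mul_assoc, Finset.sum_add_distrib, Finset.sum_sub_distrib, ← Finset.mul_sum,
      SD, SG, SG0, bJ, bK, b1, sub_self, mul_zero, htriv, one_mul, div_one, Fin.sum_univ_three,
      neg_mul, hdiv s a J K hs, hdiv _ _ J K (hpq 0).1, hdiv _ _ J K (hpq 1).1, hdiv _ _ J K (hpq 2).1,
      hdiv _ _ J K (hpq 0).2.1, hdiv _ _ J K (hpq 1).2.1, hdiv _ _ J K (hpq 2).2.1,
      hdiv _ _ J K (hpq 0).2.2, hdiv _ _ J K (hpq 1).2.2, hdiv _ _ J K (hpq 2).2.2,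
      aJ, aK, a1, (pJ 0).1, (pJ 1).1, (pJ 2).1, (pJ 0).2, (pJ 1).2, (pJ 2).2, (pK 0).1, (pK 1).1, (pK 2).1,
      (pK 0).2, (pK 1).2, (pK 2).2, (p1 0).1, (p1 1).1, (p1 2).1, (p1 0).2, (p1 1).2, (p1 2).2] at h
    simp only [hform, Fin.sum_univ_three]
    simp only [hcc] at h ⊢
    linear_combination h / 2
  -- congruences
  obtain ⟨b1, a1, p1⟩ := hlin 1 (one_mul 1)
  have hrg0 : rg 0 = 1 := by
    show ((e.symm (regEl 0) : H) : G) = 1
    rw [show regEl 0 = 1 from rfl, map_one, OneMemClass.coe_one]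
  have key : ∀ k, ∃ L : Fin 3 → ℤ, ∃ α : ℤ, (∀ j, (C k : G → ℂ) (rg j.succ) =
        ((3 * L j + 2 * ((if k = j then -1 else 1) * η k) : ℤ) : ℂ)) ∧
      (C k : G → ℂ) 1 = ((η k + 27 * α : ℤ) : ℂ) ∧ (0 ≤ α) ∧
      (α = 0 → ∀ t : Fin 15, 4 ≤ (t : ℕ) → r (C k) t = 0) := by
    intro k
    obtain ⟨hkD, hkG, hkG0, hkF⟩ := hC k
    set ρ := r (C k) with hρ
    have pe : ∀ c, pair r c (C k) = ∑ t, c t * ρ t := fun c => rfl
    simp only [pe, Fin.sum_univ_succ, Fin.sum_univ_zero] at hkD hkG hkG0 hkF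
    have d0 := hkD 0; have d1 := hkD 1; have d2 := hkD 2; have d3 := hkD 3
    have g0 := hkG 0; have g1 := hkG 1; have g2 := hkG 2
    have f0 := hkF 0; have f1 := hkF 1; have f2 := hkF 2
    simp [vecD, vecG, vecG0, vecF, Nine.e] at d0 d1 d2 d3 g0 g1 g2 hkG0 f0 f1 f2
    refine ⟨![ρ 0 + ρ 1 - ρ 2 - ρ 3, ρ 0 + ρ 2 - ρ 1 - ρ 3, ρ 0 + ρ 3 - ρ 1 - ρ 2], ρ 10, fun j => ?_, ?_,
      Int.natCast_nonneg _, fun hα => ?_⟩
    · rw [hval]
      norm_cast
      rw [← hρ]
      simp only [Fin.sum_univ_succ, Fin.sum_univ_zero]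
      fin_cases j <;> simp [regTab] <;> split_ifs at * <;> linarith
    · rw [← hrg0, hval]
      norm_cast
      rw [← hρ]
      simp only [Fin.sum_univ_succ, Fin.sum_univ_zero]
      simp [regTab]
      linarith
    · have nn : ∀ t, 0 ≤ ρ t := fun t => Int.natCast_nonneg _
      have := nn 4; have := nn 5; have := nn 6; have := nn 7; have := nn 8; have := nn 9
      intro t ht
      fin_cases t <;> simp at ht ⊢ <;> linarith
  choose L α hLv hα hα0 hαz using key
  have hη : ∀ k, η k * η k = 1 := fun k => (hpq k).2.2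
  set U : Matrix (Fin 3) (Fin 3) ℤ := Matrix.of fun i k =>
    η k * (3 * L k i + 2 * ((if k = i then -1 else 1) * η k)) - η k * (η k + 27 * α k) with hUdef
  have hU : U.det ≠ 0 := det_mod_three fun i k => by
    have e3 : η k * η k = 1 := hη k
    rw [hUdef, Matrix.of_apply, show η k * (3 * L k i + 2 * ((if k = i then -1 else 1) * η k)) - η k * (η k + 27 * α k) =
      3 * (η k * L k i - 9 * η k * α k) + 2 * (if k = i then -1 else 1) * (η k * η k) - η k * η k by ring, e3]
    push_cast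
    rw [show (3 : ZMod 3) = 0 from rfl]
    by_cases hik : i = k
    · rw [if_pos hik.symm, if_pos hik, zero_mul, zero_add]; push_cast; rfl
    · rw [if_neg (Ne.symm hik), if_neg hik, zero_mul, zero_add]; push_cast; rfl
  have hUval : ∀ i k, (U i k : ℂ) = cc k (rg i.succ) - cc k 1 := fun i k => by
    simp only [hUdef, Matrix.of_apply, hcc, hLv, hα]
    push_cast
    ring
  have hne : ∀ (z : ℤ) (χ : IrrCharacter G), z * z = 1 → (z : ℂ) * (χ : G → ℂ) 1 ≠ 0 := fun z χ hz =>
    mul_ne_zero (Int.cast_ne_zero.2 fun h => by simp [h] at hz) (Char.irr_one_ne_zero χ.2)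
  have hdeg1 : ∀ k, cc k 1 = 1 := by
    refine degrees_eq_one (a := fun k => cc k 1) (N := N 1) rfl (a1 ▸ hne s a hs)
      (fun k => (p1 k).2 ▸ hne _ _ (hpq k).2.1) (fun k => hne _ _ (hη k)) (fun k => (p1 k).1 ▸ hne _ _ (hpq k).1)
      U hU fun i j => ?_
    have e1 := hform0 _ _ (hrsq i.succ) (hrsq j.succ)
    have e2 := hform0 1 _ (one_mul 1) (hrsq j.succ)
    have e3 := hform0 _ 1 (hrsq i.succ) (one_mul 1)
    have e4 := hform0 1 1 (one_mul 1) (one_mul 1)
    simp only [hform, hNdef, Fin.sum_univ_three] at e1 e2 e3 e4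
    simp only [hUval, hNdef, Fin.sum_univ_three]
    linear_combination e1 - e2 - e3 + e4
  refine ⟨C, fun k => ?_⟩
  have h := hdeg1 k
  simp only [hcc, hα] at h
  have h' : η k * (η k + 27 * α k) = 1 := by exact_mod_cast h
  have hpos : 0 < η k + 27 * α k := by
    have e0 := hd (C k)
    rw [hα] at e0
    have e1 : η k + 27 * α k = (d (C k) : ℤ) := by exact_mod_cast e0
    rw [e1]; exact_mod_cast hd0 _
  have hη1 : η k = 1 ∧ α k = 0 := by
    rcases mul_self_eq_one_iff.1 (hη k) with e1 | e1 <;> rw [e1] at h' hpos ⊢ <;> omega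
  refine ⟨by rw [hα, hη1.1, hη1.2]; norm_num, fun j => ?_, fun t ht => ?_⟩
  · obtain ⟨ω, hω⟩ := Char.exists_monoidHom_of_degree_one (Char.isCharacter_of_irr (C k).2)
      (by rw [hα, hη1.1, hη1.2]; norm_num)
    have hv := hLv k j
    rw [hη1.1, mul_one] at hv
    show (C k : G → ℂ) (rg j.succ) = _
    rw [hω] at hv ⊢
    have hsq : (ω (rg j.succ) : ℂ) * ω (rg j.succ) = 1 := by
      rw [← Units.val_mul, ← map_mul, hrsq, map_one, Units.val_one]
    rw [hv] at hsq ⊢
    have hsq' : (3 * L k j + 2 * if k = j then -1 else 1) * (3 * L k j + 2 * if k = j then -1 else 1) = (1 : ℤ) := by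
      exact_mod_cast hsq
    by_cases hkj : k = j
    · rw [if_pos hkj] at hsq' ⊢
      rcases mul_self_eq_one_iff.1 hsq' with e1 | e1
      · rw [if_pos hkj, e1]; norm_num
      · omega
    · rw [if_neg hkj] at hsq' ⊢
      rcases mul_self_eq_one_iff.1 hsq' with e1 | e1
      · omega
      · rw [if_neg hkj, e1]; norm_num
  · have h1 : (C k : G → ℂ) t = (C k : G → ℂ) (rg 0) := by
      rw [show t = ((⟨t, hy.le ht⟩ : H) : G) from rfl, hres, hrg, hres (C k) (e.symm (regEl 0))]
      refine Finset.sum_congr rfl fun i _ => ?_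
      by_cases hi : 4 ≤ (i : ℕ)
      · rw [hαz k hη1.2 i hi]; simp
      · obtain ⟨i', rfl⟩ : ∃ i' : Fin 13, i = i'.castSucc.castSucc := ⟨⟨i, by omega⟩, rfl⟩
        congr 1
        show (R₀ i'.castSucc.castSucc : M → ℂ) (e ⟨t, hy.le ht⟩) =
          (R₀ i'.castSucc.castSucc : M → ℂ) (e (e.symm (regEl 0)))
        rw [htab, htab, MulEquiv.apply_symm_apply]
        exact congrArg Int.cast ((show ∀ (i : Fin 13), (i : ℕ) < 4 → ∀ x : M, x ^ 3 = 1 → tab i x = tab i (regEl 0) by
          decide +kernel) i' (by simpa using hi) _ ((hy.mem_iff _).1 ht))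
    rw [h1, hrg0, hα, hη1.1, hη1.2]; norm_num

theorem three_or_reg : ∀ x : M, x ^ 3 = 1 ∨ ∃ j : Fin 3, ∃ y : M, y ^ 3 = 1 ∧ x = y * regEl j.succ := by
  decide +kernel

/-- A rotation in the first factor. -/
def x₁ : M := ⟨(DihedralGroup.r 1, 1, 1), MonoidHom.mem_ker.2 rfl⟩

/-- A rotation in the second factor. -/
def x₂ : M := ⟨(1, DihedralGroup.r 1, 1), MonoidHom.mem_ker.2 rfl⟩

theorem card_three : (Finset.univ.filter fun x : M => x ^ 3 = 1).card = 27 := by decide +kernel

set_option maxHeartbeats 800000 in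
/-- The recognition theorem. -/
theorem eq_top (hy : Hyp H T e) : H = ⊤ := by
  classical
  haveI : Fact (Nat.Prime 3) := ⟨Nat.prime_three⟩
  obtain ⟨C, hC⟩ := exists_linear hy
  choose ω hω using fun k => Char.exists_monoidHom_of_degree_one (Char.isCharacter_of_irr (C k).2) (hC k).1
  set f : G →* ℂˣ × ℂˣ := (ω 0).prod (ω 1) with hf
  set K := f.ker with hK
  have hKmem : ∀ g, g ∈ K ↔ ω 0 g = 1 ∧ ω 1 g = 1 := fun g => by
    rw [hK, MonoidHom.mem_ker, hf, MonoidHom.prod_apply, Prod.mk_eq_one]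
  have hTK : T ≤ K := fun t ht => (hKmem t).2
    ⟨Units.ext (by rw [Units.val_one, ← (hC 0).2.2 t ht, hω]), Units.ext (by rw [Units.val_one, ← (hC 1).2.2 t ht, hω])⟩
  have hKH : ∀ g ∈ K, g ∈ H → g ∈ T := by
    intro g hgK hgH
    rcases three_or_reg (e ⟨g, hgH⟩) with h | ⟨j, y, hy3, hxy⟩
    · exact (hy.mem_iff _).2 h
    exfalso
    set t : H := e.symm y
    have htT : (t : G) ∈ T := (hy.mem_iff t).2 (by rwa [MulEquiv.apply_symm_apply])
    have hg : g = (t : G) * (e.symm (regEl j.succ) : G) := by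
      have := congrArg e.symm hxy
      rw [MulEquiv.symm_apply_apply, map_mul] at this
      exact congrArg Subtype.val this
    have hr : (e.symm (regEl j.succ) : G) ∈ K := by
      rw [show (e.symm (regEl j.succ) : G) = (t : G)⁻¹ * g by rw [hg]; group]
      exact K.mul_mem (K.inv_mem (hTK htT)) hgK
    obtain ⟨h0, h1⟩ := (hKmem _).1 hr
    have a0 : (C 0 : G → ℂ) (e.symm (regEl j.succ) : G) = 1 := by rw [hω, h0, Units.val_one]
    have a1 : (C 1 : G → ℂ) (e.symm (regEl j.succ) : G) = 1 := by rw [hω, h1, Units.val_one]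
    rw [(hC 0).2.1 j] at a0
    rw [(hC 1).2.1 j] at a1
    split_ifs at a0 a1 with i0 i1
    · exact absurd (i0.trans i1.symm) (by decide)
    all_goals norm_num at *
  -- the complement
  set T' := T.subgroupOf K with hT'
  have hN : normalizer (T' : Set K) ≤ T' := fun x hx => hKH _ x.2 (by
    rw [← hy.norm]
    exact LAE62.mem_normalizer_of_conj_mem fun t ht => (mem_normalizer_iff.1 hx ⟨t, hTK ht⟩).1 ht)
  have hT27 : Nat.card T = 3 ^ 3 := by
    rw [show (3 : ℕ) ^ 3 = 27 from rfl, ← card_three, ← Nat.card_eq_finsetCard,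
      ← Nat.card_congr (subgroupOfEquivOfLe hy.le).toEquiv]
    exact Nat.card_congr (e.toEquiv.subtypeEquiv fun h => by
      simp [Subgroup.mem_subgroupOf, hy.mem_iff])
  have hT3 : IsPGroup 3 T := IsPGroup.of_card hT27
  have hT'p : IsPGroup 3 T' := hT3.of_equiv (subgroupOfEquivOfLe hTK).symm
  have hidx : ¬ 3 ∣ T'.index := by
    intro hd
    have hn : Nat.card T' = 3 ^ 3 := by rw [Nat.card_congr (subgroupOfEquivOfLe hTK).toEquiv, hT27]
    have h1 : 3 ^ (3 + 1) ∣ Nat.card K := by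
      rw [← T'.card_mul_index, hn, pow_succ]
      exact mul_dvd_mul_left _ hd
    have h2 := Sylow.prime_dvd_card_quotient_normalizer h1 hn
    have htop : comap (normalizer (T' : Set K)).subtype T' = ⊤ := eq_top_iff.2 fun y _ => hN y.2
    rw [← Subgroup.index_eq_card, htop, index_top] at h2
    omega
  obtain ⟨P, hP⟩ : ∃ P : Sylow 3 K, (P : Subgroup K) = T' := ⟨hT'p.toSylow hidx, IsPGroup.toSylow_coe _ _⟩
  have hTcomm : ∀ x ∈ T, ∀ y ∈ T, x * y = y * x := fun x hx y hy' => by
    have h' := comm_three _ _ ((hy.mem_iff ⟨x, hy.le hx⟩).1 hx) ((hy.mem_iff ⟨y, hy.le hy'⟩).1 hy')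
    rw [← map_mul, ← map_mul] at h'
    exact congrArg Subtype.val (e.injective h')
  have hPc : normalizer ((P : Subgroup K) : Set K) ≤ centralizer ((P : Subgroup K) : Set K) := by
    rw [hP]
    exact fun x hx => mem_centralizer_iff.2 fun y hy' => Subtype.ext (hTcomm _ hy' _ (hN hx))
  obtain ⟨K₀, hKn, hc⟩ : ∃ K₀ : Subgroup K, K₀.Normal ∧ IsComplement' K₀ (P : Subgroup K) :=
    ⟨(MonoidHom.transferSylow P hPc).ker, MonoidHom.normal_ker _, MonoidHom.ker_transferSylow_isComplement' P hPc⟩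
  rw [hP] at hc
  set O := K₀.map K.subtype with hO
  have hO3 : ¬ 3 ∣ Nat.card O := by rwa [hO, card_subtype, ← hc.index_eq_card]
  have hTn : T ≤ normalizer (O : Set G) := fun t ht => LAE62.mem_normalizer_of_conj_mem (by
    rintro _ ⟨k, hk, rfl⟩
    exact ⟨⟨t, hTK ht⟩ * k * ⟨t, hTK ht⟩⁻¹, hKn.conj_mem k hk _, rfl⟩)
  have hObot : O = ⊥ := by
    by_contra hne
    have hq : Nat.card O ≠ 1 := fun h => hne (card_eq_one.1 h)
    obtain ⟨q, hq, hqd⟩ := Nat.exists_prime_and_dvd hq
    haveI : Fact q.Prime := ⟨hq⟩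
    have hq3 : 3 ≠ q := fun e' => hO3 (e' ▸ hqd)
    haveI : IsMulCommutative T := ⟨⟨fun x y => Subtype.ext (hTcomm x x.2 y y.2)⟩⟩
    obtain ⟨Q, hQ⟩ := Coprime.exists_invariant_sylow q hTn (by
      rw [hT27]; exact Nat.Coprime.pow_left 3 (Nat.prime_three.coprime_iff_not_dvd.2 hO3))
      (Or.inl (Group.isSolvable_of_comm fun x y => Subtype.ext (hTcomm x x.2 y y.2)))
    set Qm := (Q : Subgroup O).map O.subtype
    have hQm : IsPGroup q Qm := Q.2.map _
    have hQne : Qm ≠ ⊥ := fun h => by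
      rw [Subgroup.map_eq_bot_iff_of_injective _ O.subtype_injective] at h
      exact Sylow.ne_bot_of_dvd_card Q hqd h
    set te : G := (e.symm x₁ : G)
    set tb : G := (e.symm x₂ : G)
    have hmemT : ∀ x : M, x ^ 3 = 1 → (e.symm x : G) ∈ T := fun x hx =>
      (hy.mem_iff _).2 (by rwa [MulEquiv.apply_symm_apply])
    have hte : te ∈ T := hmemT x₁ (by decide +kernel)
    have htb : tb ∈ T := hmemT x₂ (by decide +kernel)
    have h3 : ∀ x : M, x ^ 3 = 1 → (e.symm x : G) ^ 3 = 1 := fun x hx => by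
      rw [← SubmonoidClass.coe_pow, ← map_pow, hx, map_one, OneMemClass.coe_one]
    have hfix : ∀ t ∈ T, t ≠ 1 → ∀ v ∈ Qm, t * v = v * t → v = 1 := by
      intro t ht ht1 v hv htv
      have hvO : v ∈ O := map_subtype_le _ hv
      obtain ⟨k, hk, rfl⟩ := hvO
      have hkT : k ∈ T' := hKH _ k.2 (hy.cent t ht ht1 (mem_centralizer_singleton_iff.2 htv.symm))
      rw [Subgroup.disjoint_def.1 hc.disjoint hk hkT]
      rfl
    rcases OddLocal.exists_fixed_of_noncyclic_pair Nat.prime_three hq hq3 hQm hQne (h3 x₂ (by decide +kernel))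
      (h3 x₁ (by decide +kernel)) (hTcomm tb htb te hte) (hQ htb) (hQ hte) with ⟨v, hv, hv1, h⟩ | ⟨j, v, hv, hv1, h⟩
    · refine hv1 (hfix te hte (fun h' => ?_) v hv h)
      have : x₁ = 1 := e.symm.injective (Subtype.ext (by rw [map_one]; exact h'))
      exact absurd this (by decide +kernel)
    · refine hv1 (hfix _ (T.mul_mem htb (T.pow_mem hte j)) (fun h' => ?_) v hv h)
      have h'' : x₂ * x₁ ^ j = 1 := e.symm.injective (Subtype.ext (by
        rw [map_one, map_mul, map_pow, Subgroup.coe_mul, SubmonoidClass.coe_pow]; exact h'))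
      have := congrArg (proj 1) h''
      rw [map_mul, map_pow, map_one, show proj 1 x₁ = 1 by decide +kernel, one_pow, mul_one] at this
      exact absurd this (by decide +kernel)
  have hKT : K ≤ T := by
    intro x hx
    have h1 : (⟨x, hx⟩ : K) ∈ K₀ ⊔ T' := by rw [hc.sup_eq_top]; exact mem_top _
    have h2 := mem_map_of_mem K.subtype h1
    rw [Subgroup.map_sup, ← hO, hObot, bot_sup_eq, hT', subgroupOf_map_subtype] at h2
    exact h2.1
  haveI : T.Normal := by
    rw [show T = K from le_antisymm hTK hKT, hK]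
    infer_instance
  rw [← hy.norm, normalizer_eq_top]

end Cfsg.Agent.LAE62.Nine
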