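import Mathlib.GroupTheory.SpecificGroups.Dihedral
import Mathlib.GroupTheory.Perm.Fin
import Mathlib.LinearAlgebra.Trace
import Cfsg.Agent.Char.Virtual
import Cfsg.Agent.Char.Product

/-!
The group of order 108 inside a product of three groups of order six, and its characters.
-/

set_option autoImplicit false

namespace Cfsg.Agent.LAE62.Nine

open Cfsg DihedralGroup

/-- The group of order six. -/
abbrev D3 := DihedralGroup 3

/-- The sign of a rotation or a reflection. -/
def sgn : D3 → ℤˣ
  | r _ => 1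
  | sr _ => -1

/-- The sign as a homomorphism. -/
def sgnHom : D3 →* ℤˣ where
  toFun := sgn
  map_one' := rfl
  map_mul' := by decide

/-- The number of reflections modulo two. -/
def parity : D3 × D3 × D3 →* ℤˣ :=
  sgnHom.comp (MonoidHom.fst _ _) *
    (sgnHom.comp ((MonoidHom.fst _ _).comp (MonoidHom.snd _ _)) *
      sgnHom.comp ((MonoidHom.snd _ _).comp (MonoidHom.snd _ _)))

/-- Triples with an even number of reflections. -/
abbrev M : Subgroup (D3 × D3 × D3) := parity.ker

instance instDecidablePredMemM : DecidablePred (· ∈ M) :=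
  fun x => decidable_of_iff (parity x = 1) MonoidHom.mem_ker.symm

/-- The factors. -/
def proj : Fin 3 → M →* D3 :=
  ![(MonoidHom.fst _ _).comp M.subtype,
    ((MonoidHom.fst _ _).comp (MonoidHom.snd _ _)).comp M.subtype,
    ((MonoidHom.snd _ _).comp (MonoidHom.snd _ _)).comp M.subtype]

/-- The three kinds of characters of a factor. -/
def dchar : Fin 3 → D3 → ℤ
  | 0, _ => 1
  | 1, r _ => 1
  | 1, sr _ => -1
  | 2, r i => if i = 0 then 2 else -1
  | 2, sr _ => 0

/-- Indices of the rational irreducible characters. -/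
def idx : Fin 13 → Fin 3 × Fin 3 × Fin 3 :=
  ![(0, 0, 0), (1, 0, 0), (0, 1, 0), (0, 0, 1), (2, 0, 0), (2, 1, 0), (0, 2, 0), (0, 2, 1), (0, 0, 2), (1, 0, 2),
    (2, 2, 0), (2, 0, 2), (0, 2, 2)]

/-- The product of characters of the factors. -/
def prodVal (i : Fin 3 × Fin 3 × Fin 3) (x : M) : ℤ :=
  dchar i.1 (proj 0 x) * dchar i.2.1 (proj 1 x) * dchar i.2.2 (proj 2 x)

/-- The values of the rational irreducible characters. -/
def tab (t : Fin 13) (x : M) : ℤ := prodVal (idx t) x

/-- The sum of the two remaining characters. -/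
def pairVal (x : M) : ℤ := prodVal (2, 2, 2) x

/-- The identity and the three classes of involutions. -/
def regEl : Fin 4 → M :=
  ![1, ⟨(r 0, sr 0, sr 0), by decide⟩, ⟨(sr 0, r 0, sr 0), by decide⟩, ⟨(sr 0, sr 0, r 0), by decide⟩]

/-- The values at `regEl`. -/
def regTab : Fin 15 → Fin 4 → ℤ :=
  ![![1, 1, 1, 1], ![1, 1, -1, -1], ![1, -1, 1, -1], ![1, -1, -1, 1],
    ![2, 2, 0, 0], ![2, -2, 0, 0], ![2, 0, 2, 0], ![2, 0, -2, 0], ![2, 0, 0, 2], ![2, 0, 0, -2],
    ![4, 0, 0, 0], ![4, 0, 0, 0], ![4, 0, 0, 0], ![4, 0, 0, 0], ![4, 0, 0, 0]]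

theorem tab_regEl : ∀ (t : Fin 13) (j : Fin 4), tab t (regEl j) = regTab t.castSucc.castSucc j := by decide +kernel

theorem pairVal_regEl : ∀ j : Fin 4, pairVal (regEl j) = regTab 13 j + regTab 14 j := by decide +kernel

theorem card_M : Fintype.card M = 108 := by decide +kernel

theorem conj_regEl : ∀ x : M, x * x = 1 → ∃ j : Fin 4, ∃ u : M, u * regEl j * u⁻¹ = x := by decide +kernel

theorem pow_six : ∀ x : M, x ^ 6 = 1 := by decide +kernel

theorem card_centralizer_regEl : ∀ j : Fin 4, j ≠ 0 →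
    (Finset.univ.filter fun g : M => g * regEl j = regEl j * g).card = 12 := by decide +kernel

theorem tab_norm : ∀ t : Fin 13, ∑ x : M, tab t x * tab t x = 108 := by decide +kernel

theorem tab_injective : ∀ t t' : Fin 13, t ≠ t' → ∃ x : M, tab t x ≠ tab t' x := by decide +kernel

theorem pairVal_norm : ∑ x : M, pairVal x * pairVal x = 216 := by decide +kernel

theorem pairVal_orth : ∀ t : Fin 13, ∑ x : M, pairVal x * tab t x = 0 := by decide +kernel

/-- A matrix model of the character of degree two. -/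
def mat2 : D3 → Matrix (Fin 2) (Fin 2) ℤ
  | r i => if i = 0 then 1 else if i = 1 then !![0, -1; 1, -1] else !![-1, 1; -1, 0]
  | sr i => if i = 0 then !![0, 1; 1, 0] else if i = 1 then !![1, -1; 0, -1] else !![-1, 0; -1, 1]

theorem mat2_mul : ∀ a b : D3, mat2 (a * b) = mat2 a * mat2 b := by decide +kernel

theorem mat2_trace : ∀ a : D3, Matrix.trace (mat2 a) = dchar 2 a := by decide +kernel

theorem isCharacter_dchar (i : Fin 3) : IsCharacter D3 fun x => (dchar i x : ℂ) := by
  fin_cases i
  · show IsCharacter D3 fun x => (dchar 0 x : ℂ)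
    simpa [dchar] using (Char.isCharacter_const_one (G := D3))
  · let f : D3 →* ℂˣ := (Units.map (Int.castRingHom ℂ).toMonoidHom).comp sgnHom
    have h := Char.isCharacter_of_irr (Char.isIrrCharacter_monoidHom f)
    convert h using 1
    funext x
    show (dchar 1 x : ℂ) = (((sgn x : ℤˣ) : ℤ) : ℂ)
    cases x <;> simp [dchar, sgn]
  · let m : D3 →* Matrix (Fin 2) (Fin 2) ℂ :=
      { toFun := fun x => (Int.castRingHom ℂ).mapMatrix (mat2 x)
        map_one' := by
          rw [show mat2 1 = 1 by decide +kernel, map_one]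
        map_mul' := fun a b => by rw [mat2_mul, map_mul] }
    let ρ : Representation ℂ D3 (Fin 2 → ℂ) :=
      (Matrix.toLinAlgEquiv' (R := ℂ) (n := Fin 2)).toAlgHom.toRingHom.toMonoidHom.comp m
    refine ⟨2, ρ, funext fun x => ?_⟩
    show LinearMap.trace ℂ _ (Matrix.toLin' ((Int.castRingHom ℂ).mapMatrix (mat2 x))) = (dchar 2 x : ℂ)
    rw [Matrix.trace_toLin'_eq, ← mat2_trace]
    simp [Matrix.trace]

theorem isCharacter_prodVal (i : Fin 3 × Fin 3 × Fin 3) : IsCharacter M fun x => (prodVal i x : ℂ) := by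
  have h : ∀ (j : Fin 3) (k : Fin 3), IsCharacter M fun x => (dchar j (proj k x) : ℂ) := fun j k =>
    Char.isCharacter_comp (isCharacter_dchar j) (proj k)
  have h' := Char.isCharacter_mul (Char.isCharacter_mul (h i.1 0) (h i.2.1 1)) (h i.2.2 2)
  convert h' using 1
  funext x
  simp [prodVal]

theorem classInner_int (a b : M → ℤ) :
    classInner (fun x => (a x : ℂ)) (fun x => (b x : ℂ)) = ((∑ x : M, a x * b x : ℤ) : ℂ) / 108 := by
  rw [classInner, Nat.card_eq_fintype_card, card_M, div_eq_inv_mul]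
  push_cast
  congr 1
  exact Finset.sum_congr rfl fun x _ => by rw [map_intCast]

/-- The rational irreducible characters. -/
noncomputable def ratIrr (t : Fin 13) : IrrCharacter M :=
  ⟨fun x => (tab t x : ℂ), Char.isIrrCharacter_iff_classInner.2 ⟨isCharacter_prodVal _, by
    rw [classInner_int, tab_norm]; norm_num⟩⟩

/-- The character table of `M`, as far as needed. -/
theorem exists_table : ∃ R : Fin 15 → IrrCharacter M, Function.Bijective R ∧
    (∀ (t : Fin 13) (x : M), (R t.castSucc.castSucc : M → ℂ) x = tab t x) ∧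
    (∀ x : M, (R 13 : M → ℂ) x + (R 14 : M → ℂ) x = pairVal x) ∧
    ∀ (t : Fin 15) (j : Fin 4), (R t : M → ℂ) (regEl j) = regTab t j := by
  classical
  obtain ⟨n, hn, hn'⟩ := Char.isCharacter_exists_coeff (isCharacter_prodVal (2, 2, 2))
  have hW : classInner (fun x : M => (prodVal (2, 2, 2) x : ℂ)) (fun x => (prodVal (2, 2, 2) x : ℂ)) = 2 := by
    rw [classInner_int, show (∑ x : M, prodVal (2, 2, 2) x * prodVal (2, 2, 2) x) = 216 from pairVal_norm]
    norm_num
  rw [Char.classInner_eq_sum_mul_conj (Char.isCharacter_isClassFunction (isCharacter_prodVal _))] at hW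
  simp only [hn', map_natCast] at hW
  have hsum : ∑ ψ, n ψ * n ψ = 2 := by exact_mod_cast hW
  have hle : ∀ ψ, n ψ ≤ 1 := fun ψ => by
    have h := Finset.single_le_sum (fun φ _ => Nat.zero_le (n φ * n φ)) (Finset.mem_univ ψ)
    rw [hsum] at h
    nlinarith
  have hcard : (Finset.univ.filter fun ψ => n ψ = 1).card = 2 := by
    rw [Finset.card_filter]
    refine (Finset.sum_congr rfl fun ψ _ => ?_).trans hsum
    rcases Nat.le_one_iff_eq_zero_or_eq_one.1 (hle ψ) with h | h <;> simp [h]
  obtain ⟨ξ, ξ', hne, hS⟩ := Finset.card_eq_two.1 hcard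
  have hmem : ∀ ψ, n ψ = 1 ↔ ψ = ξ ∨ ψ = ξ' := fun ψ => by
    have : ψ ∈ Finset.univ.filter (fun φ => n φ = 1) ↔ ψ ∈ ({ξ, ξ'} : Finset _) := by rw [hS]
    simpa using this
  have hval : ∀ x : M, (ξ : M → ℂ) x + (ξ' : M → ℂ) x = pairVal x := by
    intro x
    have h := congrFun hn x
    rw [Finset.sum_apply, ← Finset.sum_subset (Finset.subset_univ {ξ, ξ'}) (fun ψ _ hψ => by
      have h0 : n ψ = 0 := by
        rcases Nat.le_one_iff_eq_zero_or_eq_one.1 (hle ψ) with h | h
        · exact h
        · exact absurd ((hmem ψ).1 h) (by simpa using hψ)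
      simp [h0]), Finset.sum_pair hne] at h
    simpa [(hmem ξ).2 (Or.inl rfl), (hmem ξ').2 (Or.inr rfl), pairVal] using h.symm
  have hnot : ∀ t : Fin 13, n (ratIrr t) = 0 := fun t => by
    have h := hn' (ratIrr t)
    rw [show classInner (fun x : M => (prodVal (2, 2, 2) x : ℂ)) (ratIrr t : M → ℂ) = 0 by
      show classInner (fun x : M => (pairVal x : ℂ)) (fun x => (tab t x : ℂ)) = 0
      rw [classInner_int, pairVal_orth]; norm_num] at h
    exact_mod_cast h.symm
  let R : Fin 15 → IrrCharacter M := Fin.snoc (Fin.snoc ratIrr ξ : Fin 14 → IrrCharacter M) ξ'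
  have hR0 : ∀ t : Fin 13, R t.castSucc.castSucc = ratIrr t := fun t => by simp [R]
  have hR1 : R 13 = ξ := by
    show (Fin.snoc (Fin.snoc ratIrr ξ : Fin 14 → IrrCharacter M) ξ' : Fin 15 → IrrCharacter M) (Fin.last 13).castSucc = ξ
    rw [Fin.snoc_castSucc, Fin.snoc_last]
  have hR2 : R 14 = ξ' := by
    show (Fin.snoc (Fin.snoc ratIrr ξ : Fin 14 → IrrCharacter M) ξ' : Fin 15 → IrrCharacter M) (Fin.last 14) = ξ'
    rw [Fin.snoc_last]
  have hinj : Function.Injective R := by
    have h1 : ∀ t, ratIrr t ≠ ξ ∧ ratIrr t ≠ ξ' := fun t =>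
      ⟨fun e => by have := (hmem _).2 (Or.inl e); rw [hnot] at this; omega,
       fun e => by have := (hmem _).2 (Or.inr e); rw [hnot] at this; omega⟩
    have h2 : Function.Injective ratIrr := fun t t' e => by
      by_contra hne'
      obtain ⟨x, hx⟩ := tab_injective t t' hne'
      exact hx (Int.cast_injective (α := ℂ) (congrFun (congrArg Subtype.val e) x))
    intro a b e
    refine Fin.lastCases ?_ (fun a e => ?_) a e
    · refine Fin.lastCases (fun _ => rfl) (fun b e => ?_) b
      refine Fin.lastCases (fun e => ?_) (fun b e => ?_) b e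
      · simp [R] at e; exact absurd e.symm hne
      · simp [R] at e; exact absurd e.symm (h1 b).2
    · refine Fin.lastCases (fun e => ?_) (fun b e => ?_) b e
      · refine Fin.lastCases (fun e => ?_) (fun a e => ?_) a e
        · simp [R] at e; exact absurd e hne
        · simp [R] at e; exact absurd e (h1 a).2
      · refine Fin.lastCases (fun e => ?_) (fun a e => ?_) a e
        · refine Fin.lastCases (fun _ => rfl) (fun b e => ?_) b e
          simp [R] at e; exact absurd e.symm (h1 b).1
        · refine Fin.lastCases (fun e => ?_) (fun b e => ?_) b e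
          · simp [R] at e; exact absurd e (h1 a).1
          · simp [R] at e; rw [h2 e]
  -- degrees
  obtain ⟨d, -, hd⟩ := Char.irr_one_pos ξ.2
  obtain ⟨d', -, hd'⟩ := Char.irr_one_pos ξ'.2
  have hp1 : pairVal 1 = 8 := by decide +kernel
  have hdd : d + d' = 8 := by
    have h := hval 1
    rw [hd, hd', hp1] at h
    exact_mod_cast h
  have hdeg := Char.sum_irr_degree_sq (G := M)
  rw [Nat.card_eq_fintype_card, card_M, ← Finset.sum_sdiff (Finset.subset_univ (Finset.univ.image R)),
    Finset.sum_image fun a _ b _ e => hinj e, Fin.sum_univ_castSucc, Fin.sum_univ_castSucc] at hdeg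
  simp only [hR0, hR1, hR2, Fin.reduceLast, Fin.reduceCastSucc, hd, hd'] at hdeg
  have h13 : ∑ t : Fin 13, (ratIrr t : M → ℂ) 1 ^ 2 = 76 := by
    show ∑ t : Fin 13, (tab t 1 : ℂ) ^ 2 = 76
    have : ∑ t : Fin 13, tab t 1 ^ 2 = 76 := by decide +kernel
    exact_mod_cast this
  rw [h13] at hdeg
  choose e he0 he using fun ψ : IrrCharacter M => Char.irr_one_pos ψ.2
  simp only [he] at hdeg
  have hdeg' : (∑ ψ ∈ Finset.univ \ Finset.univ.image R, e ψ ^ 2) + (76 + d ^ 2 + d' ^ 2) = 108 := by
    exact_mod_cast hdeg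
  have hd4 : d = 4 ∧ d' = 4 ∧ ∑ ψ ∈ Finset.univ \ Finset.univ.image R, e ψ ^ 2 = 0 := by
    have h32 : 32 ≤ d ^ 2 + d' ^ 2 := by
      have : (32 : ℤ) ≤ (d : ℤ) ^ 2 + (d' : ℤ) ^ 2 := by
        have hz : (d : ℤ) + d' = 8 := by exact_mod_cast hdd
        nlinarith [sq_nonneg ((d : ℤ) - d')]
      exact_mod_cast this
    have heq : d ^ 2 + d' ^ 2 = 32 := by omega
    have : d ≤ 8 := by omega
    interval_cases d <;> (have : d' = 8 - _ := Nat.eq_sub_of_add_eq' hdd) <;> subst this <;> simp_all <;> omega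
  obtain ⟨rfl, rfl, hrest⟩ := hd4
  have hsurj : Function.Surjective R := by
    intro ψ
    by_contra hψ
    have hψ' : ψ ∈ Finset.univ \ Finset.univ.image R := by simpa using fun t ht => hψ ⟨t, ht⟩
    have := Finset.single_le_sum (fun φ _ => Nat.zero_le (e φ ^ 2)) hψ'
    rw [hrest] at this
    have := he0 ψ
    nlinarith
  -- the values at the involutions
  have hzero : ∀ j : Fin 4, j ≠ 0 → (ξ : M → ℂ) (regEl j) = 0 ∧ (ξ' : M → ℂ) (regEl j) = 0 := by
    intro j hj
    have h := Char.sum_irr_mul_conj (regEl j) (regEl j)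
    rw [if_pos (IsConj.refl _), ← Finset.sum_subset (Finset.subset_univ (Finset.univ.image R))
      (fun ψ _ hψ => absurd (by obtain ⟨t, rfl⟩ := hsurj ψ; simp) hψ),
      Finset.sum_image fun a _ b _ e => hinj e, Fin.sum_univ_castSucc, Fin.sum_univ_castSucc] at h
    simp only [hR0, hR1, hR2, Fin.reduceLast, Fin.reduceCastSucc, Complex.mul_conj] at h
    have hc : Nat.card (Subgroup.centralizer ({regEl j} : Set M)) = 12 := by
      rw [← card_centralizer_regEl j hj, ← Nat.card_eq_finsetCard]
      exact Nat.card_congr (Equiv.subtypeEquivRight fun g => by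
        simp [Subgroup.mem_centralizer_singleton_iff])
    have h12 : ∑ t : Fin 13, Complex.normSq ((ratIrr t : M → ℂ) (regEl j)) = 12 := by
      show ∑ t : Fin 13, Complex.normSq (tab t (regEl j) : ℂ) = 12
      have : ∀ j : Fin 4, j ≠ 0 → ∑ t : Fin 13, tab t (regEl j) * tab t (regEl j) = 12 := by decide +kernel
      simp only [Complex.normSq_intCast]
      exact_mod_cast this j hj
    rw [hc, ← Complex.ofReal_sum, h12, ← Complex.ofReal_add, ← Complex.ofReal_add,
      ← Complex.ofReal_natCast, Complex.ofReal_inj] at h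
    push_cast at h
    have a1 := Complex.normSq_nonneg ((ξ : M → ℂ) (regEl j))
    have a2 := Complex.normSq_nonneg ((ξ' : M → ℂ) (regEl j))
    exact ⟨Complex.normSq_eq_zero.1 (by linarith), Complex.normSq_eq_zero.1 (by linarith)⟩
  refine ⟨R, ⟨hinj, hsurj⟩, fun t x => by rw [hR0]; rfl, fun x => by rw [hR1, hR2]; exact hval x, ?_⟩
  refine Fin.lastCases (fun j => ?_) (fun t => ?_)
  · show (R 14 : M → ℂ) (regEl j) = (regTab 14 j : ℂ)
    by_cases hj : j = 0
    · subst hj
      rw [hR2, show regEl 0 = 1 from rfl, hd', show regTab 14 0 = 4 from rfl]; norm_num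
    · rw [hR2, (hzero j hj).2, show regTab 14 j = 0 from by revert j; decide]
      norm_num
  · refine Fin.lastCases (fun j => ?_) (fun t j => ?_) t
    · show (R 13 : M → ℂ) (regEl j) = (regTab 13 j : ℂ)
      by_cases hj : j = 0
      · subst hj
        rw [hR1, show regEl 0 = 1 from rfl, hd, show regTab 13 0 = 4 from rfl]; norm_num
      · rw [hR1, (hzero j hj).1, show regTab 13 j = 0 from by revert j; decide]
        norm_num
    · rw [hR0, ← tab_regEl]
      rfl

/-- The action of a factor on three points. -/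
def act3 : D3 → ZMod 3 → ZMod 3
  | r i, x => x + i
  | sr i, x => -(x + i)

/-- The action as permutations. -/
def actHom : D3 →* Equiv.Perm (ZMod 3) where
  toFun d := { toFun := act3 d, invFun := act3 d⁻¹
               left_inv := by revert d; decide +kernel
               right_inv := by revert d; decide +kernel }
  map_one' := by decide +kernel
  map_mul' := by decide +kernel

/-- The action of a triple on nine points in three blocks. -/
def perm9 (x : M) : Equiv.Perm (Fin 9) :=
  finProdFinEquiv.permCongr (Equiv.prodShear (Equiv.refl (Fin 3)) fun a => actHom (proj a x))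

/-- The embedding into the symmetric group. -/
def toPerm : M →* Equiv.Perm (Fin 9) where
  toFun := perm9
  map_one' := by decide +kernel
  map_mul' x y := by
    refine Equiv.ext fun i => ?_
    simp [perm9, Equiv.permCongr_apply, Equiv.prodShear]
    rfl

theorem toPerm_injective : Function.Injective toPerm := by
  refine (injective_iff_map_eq_one _).2 ?_
  decide +kernel

theorem toPerm_range : toPerm.range = Subgroup.closure ({Equiv.swap (0 : Fin 9) 1 * Equiv.swap 1 2,
    Equiv.swap (3 : Fin 9) 4 * Equiv.swap 4 5, Equiv.swap (6 : Fin 9) 7 * Equiv.swap 7 8,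
    Equiv.swap (0 : Fin 9) 1 * Equiv.swap 3 4, Equiv.swap (0 : Fin 9) 1 * Equiv.swap 6 7} :
      Set (Equiv.Perm (Fin 9))) := by
  set S : Set (Equiv.Perm (Fin 9)) := {Equiv.swap (0 : Fin 9) 1 * Equiv.swap 1 2,
    Equiv.swap (3 : Fin 9) 4 * Equiv.swap 4 5, Equiv.swap (6 : Fin 9) 7 * Equiv.swap 7 8,
    Equiv.swap (0 : Fin 9) 1 * Equiv.swap 3 4, Equiv.swap (0 : Fin 9) 1 * Equiv.swap 6 7}
  refine le_antisymm ?_ ((Subgroup.closure_le _).2 ?_)
  · rintro _ ⟨x, rfl⟩
    have key : ∀ x : M, ∃ a b c : Fin 3, ∃ u v : Fin 2, toPerm x =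
        (Equiv.swap (0 : Fin 9) 1 * Equiv.swap 1 2) ^ (a : ℕ) * (Equiv.swap (3 : Fin 9) 4 * Equiv.swap 4 5) ^ (b : ℕ) *
          (Equiv.swap (6 : Fin 9) 7 * Equiv.swap 7 8) ^ (c : ℕ) * (Equiv.swap (0 : Fin 9) 1 * Equiv.swap 3 4) ^ (u : ℕ) *
          (Equiv.swap (0 : Fin 9) 1 * Equiv.swap 6 7) ^ (v : ℕ) := by decide +kernel
    obtain ⟨a, b, c, u, v, e⟩ := key x
    rw [e]
    refine mul_mem (mul_mem (mul_mem (mul_mem ?_ ?_) ?_) ?_) ?_ <;>
      exact pow_mem (Subgroup.subset_closure (by simp [S])) _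
  · intro g hg
    simp only [S, Set.mem_insert_iff, Set.mem_singleton_iff] at hg
    rcases hg with rfl | rfl | rfl | rfl | rfl <;> simp only [SetLike.mem_coe, MonoidHom.mem_range] <;>
      decide +kernel

end Cfsg.Agent.LAE62.Nine
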